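import Mathlib
import Cfsg.Prelude.Def_Transfer
import Cfsg.Prelude.Def_Solvable
import Cfsg.Agent.Transfer.Extraspecial
import Cfsg.Agent.Lib.Cores
import Cfsg.Agent.StdL2.G23Coset

/-!
# S3346, part 1: the 2-core `R = 4 ∘ 2^{1+4}` of the centraliser of an involution `t`
-/

set_option autoImplicit false

namespace Cfsg.Agent.H345.HSA

open scoped commutatorElement

variable {G : Type*} [Group G]

/-- The facts about `H = C_G(t)`, `R = O₂(H)`, used below. -/
structure Rdat (t u : G) (R : Subgroup G) : Prop where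
  t_ne : t ≠ 1
  t_sq : t * t = 1
  u_mem : u ∈ R
  u_sq : u * u = t
  comm_u : ∀ x ∈ R, x * u = u * x
  conj_mem : ∀ g, g * t = t * g → ∀ x ∈ R, g * x * g⁻¹ ∈ R
  sq : ∀ x ∈ R, x * x = 1 ∨ x * x = t
  comm : ∀ x ∈ R, ∀ y ∈ R, x * y = y * x ∨ x * y = y * x * t
  cent : ∀ x ∈ R, (∀ y ∈ R, x * y = y * x) → x = 1 ∨ x = t ∨ x = u ∨ x = u * t
  card : Nat.card R = 64
  /-- maximality of `R` -/
  max : ∀ K : Subgroup G, (∀ g ∈ K, g * t = t * g) → (∀ g, g * t = t * g → ∀ x ∈ K, g * x * g⁻¹ ∈ K) →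
    IsPGroup 2 K → K ≤ R

theorem mem_sup_comm {A B : Subgroup G} (h : ∀ a ∈ A, ∀ b ∈ B, a * b = b * a) {x : G} (hx : x ∈ A ⊔ B) :
    ∃ a ∈ A, ∃ b ∈ B, x = a * b := by
  rw [Subgroup.sup_eq_closure] at hx
  induction hx using Subgroup.closure_induction with
  | mem x hx =>
    rcases hx with hx | hx
    · exact ⟨x, hx, 1, B.one_mem, (mul_one x).symm⟩
    · exact ⟨1, A.one_mem, x, hx, (one_mul x).symm⟩
  | one => exact ⟨1, A.one_mem, 1, B.one_mem, (mul_one 1).symm⟩
  | mul x y _ _ ihx ihy =>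
    obtain ⟨a, ha, b, hb, rfl⟩ := ihx
    obtain ⟨c, hc, d, hd, rfl⟩ := ihy
    refine ⟨a * c, A.mul_mem ha hc, b * d, B.mul_mem hb hd, ?_⟩
    have := h c hc b hb
    calc a * b * (c * d) = a * (b * c) * d := by group
      _ = a * (c * b) * d := by rw [this]
      _ = a * c * (b * d) := by group
  | inv x _ ihx =>
    obtain ⟨a, ha, b, hb, rfl⟩ := ihx
    refine ⟨a⁻¹, A.inv_mem ha, b⁻¹, B.inv_mem hb, ?_⟩
    rw [h a ha b hb, mul_inv_rev]

theorem exists_rdat [Finite G] (t : G) (ht : orderOf t = 2) (H : Subgroup G)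
    (hH : H = Subgroup.centralizer ({t} : Set G))
    (R : Subgroup G) (hR : R = (Cfsg.pCore 2 H).map H.subtype)
    (Cy E : Subgroup G) (hCy : IsCyclic Cy) (hCycard : Nat.card Cy = 4)
    (hCyle : Cy ≤ R ⊓ Subgroup.centralizer (R : Set G))
    (hEle : E ≤ R) (hEex : Cfsg.IsExtraspecial 2 E) (hEcard : Nat.card E = 32)
    (hprod : Cy ⊔ E = R) (hmeet : Cy ⊓ E = E ⊓ Subgroup.centralizer (E : Set G)) :
    ∃ u, Rdat t u R := by
  classical
  have : Fact (Nat.Prime 2) := ⟨Nat.prime_two⟩
  have htt : t * t = 1 := by rw [← pow_two, ← ht]; exact pow_orderOf_eq_one t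
  have ht1 : t ≠ 1 := by
    intro h; rw [h, orderOf_one] at ht; exact absurd ht (by norm_num)
  have hmemH : ∀ g : G, g ∈ H ↔ g * t = t * g := by
    intro g; rw [hH]; exact Subgroup.mem_centralizer_singleton_iff
  -- maximality
  have hmax : ∀ K : Subgroup G, (∀ g ∈ K, g * t = t * g) →
      (∀ g, g * t = t * g → ∀ x ∈ K, g * x * g⁻¹ ∈ K) → IsPGroup 2 K → K ≤ R := by
    intro K hK1 hK2 hK3
    have hKH : K ≤ H := fun g hg => (hmemH g).2 (hK1 g hg)
    have hn : (K.subgroupOf H).Normal := by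
      constructor
      intro x hx g
      exact hK2 g ((hmemH g).1 g.2) x hx
    have hp : IsPGroup 2 (K.subgroupOf H) :=
      hK3.of_equiv (Subgroup.subgroupOfEquivOfLe hKH).symm
    have hle : K.subgroupOf H ≤ Cfsg.pCore 2 H := le_sSup ⟨hn, hp⟩
    rw [hR]
    intro x hx
    exact ⟨⟨x, hKH hx⟩, hle hx, rfl⟩
  have hRn : ∀ g, g * t = t * g → ∀ x ∈ R, g * x * g⁻¹ ∈ R := by
    intro g hg x hx
    rw [hR] at hx ⊢
    obtain ⟨y, hy, rfl⟩ := hx
    have hn : (Cfsg.pCore 2 H).Normal := Lib.Cores.pCore_normal 2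
    exact ⟨⟨g, (hmemH g).2 hg⟩ * y * ⟨g, (hmemH g).2 hg⟩⁻¹, hn.conj_mem y hy _, rfl⟩
  have hRH : ∀ x ∈ R, x * t = t * x := by
    intro x hx
    rw [hR] at hx
    obtain ⟨y, hy, rfl⟩ := hx
    exact (hmemH _).1 y.2
  -- `t ∈ R`
  have htR : t ∈ R := by
    have h1 : ∀ x ∈ Subgroup.zpowers t, x = 1 ∨ x = t := by
      intro x hx
      obtain ⟨n, rfl⟩ := Subgroup.mem_zpowers_iff.1 hx
      rcases Int.even_or_odd' n with ⟨k, hk | hk⟩
      · left
        rw [hk, zpow_mul]
        have : t ^ (2 : ℤ) = 1 := by rw [zpow_two, htt]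
        rw [this, one_zpow]
      · right
        rw [hk, zpow_add, zpow_mul, zpow_one]
        have : t ^ (2 : ℤ) = 1 := by rw [zpow_two, htt]
        rw [this, one_zpow, one_mul]
    refine hmax (Subgroup.zpowers t) ?_ ?_ ?_ (Subgroup.mem_zpowers t)
    · intro g hg
      rcases h1 g hg with rfl | rfl
      · simp
      · rfl
    · intro g hg x hx
      rcases h1 x hx with rfl | rfl
      · simp
      · rw [hg]; simp
    · refine IsPGroup.of_card (n := 1) ?_
      rw [Nat.card_zpowers, ht, pow_one]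
  -- the generator of `Cy`
  obtain ⟨u0, hu0⟩ := hCy.exists_generator
  have hu4 : orderOf (u0 : G) = 4 := by
    rw [Subgroup.orderOf_coe, orderOf_eq_card_of_forall_mem_zpowers hu0, hCycard]
  obtain ⟨u, hu⟩ : ∃ u : G, u = u0 := ⟨_, rfl⟩
  have huC : u ∈ Cy := hu ▸ u0.2
  have hu4' : orderOf u = 4 := hu ▸ hu4
  have hupow : u ^ 4 = 1 := by rw [← hu4', pow_orderOf_eq_one]
  have hgen : ∀ x ∈ Cy, ∃ k : ℕ, k < 4 ∧ x = u ^ k := by
    intro x hx
    obtain ⟨n, hn⟩ := Subgroup.mem_zpowers_iff.1 (hu0 ⟨x, hx⟩)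
    have h1 : x = u ^ n := by
      have h0 := congrArg Subtype.val hn
      rw [hu]
      exact h0.symm
    have h2 : u ^ (n % (4 : ℕ)) = u ^ n := by rw [← hu4', zpow_mod_orderOf]
    have h3 : 0 ≤ n % (4 : ℕ) := Int.emod_nonneg _ (by norm_num)
    have h4 : n % (4 : ℕ) < 4 := Int.emod_lt_of_pos _ (by norm_num)
    refine ⟨(n % (4 : ℕ)).toNat, by omega, ?_⟩
    rw [h1, ← h2, ← zpow_natCast, Int.toNat_of_nonneg h3]
  have hu2 : u * u ≠ 1 := by
    intro h
    have : orderOf u ∣ 2 := orderOf_dvd_of_pow_eq_one (by rw [pow_two]; exact h)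
    rw [hu4'] at this
    norm_num at this
  have hinv2 : ∀ x ∈ Cy, x * x = 1 → x ≠ 1 → x = u * u := by
    intro x hx hxx hx1
    obtain ⟨k, hk, rfl⟩ := hgen x hx
    interval_cases k
    · simp at hx1
    · rw [pow_one] at hxx; exact absurd hxx hu2
    · rw [pow_two]
    · exfalso
      apply hu2
      have : u ^ 3 * u ^ 3 = u ^ 4 * (u * u) := by group
      rw [this, hupow, one_mul] at hxx
      exact hxx
  have hcomR : ∀ c ∈ Cy, ∀ x ∈ R, x * c = c * x := by
    intro c hc x hx
    exact Subgroup.mem_centralizer_iff.1 (hCyle hc).2 x hx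
  have hCyR : Cy ≤ R := fun c hc => (hCyle hc).1
  -- the centre of `E`
  have hZE : ∀ b ∈ E, (∀ y ∈ E, y * b = b * y) → b ∈ Cy := by
    intro b hb h
    have h1 : b ∈ E ⊓ Subgroup.centralizer (E : Set G) :=
      ⟨hb, Subgroup.mem_centralizer_iff.2 h⟩
    rw [← hmeet] at h1
    exact h1.1
  have hCyE : ∀ c ∈ Cy, c ∈ E → ∀ y ∈ E, y * c = c * y := fun c hc _ y hy => hcomR c hc y (hEle hy)
  have hdec : ∀ x ∈ R, ∃ c ∈ Cy, ∃ b ∈ E, x = c * b := by
    intro x hx
    rw [← hprod] at hx
    exact mem_sup_comm (fun a ha b hb => (hcomR a ha b (hEle hb)).symm) hx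
  -- `t = u ^ 2`
  have hcen : ∀ x ∈ R, (∀ y ∈ R, x * y = y * x) → x ∈ Cy := by
    intro x hx h
    obtain ⟨c, hc, b, hb, rfl⟩ := hdec x hx
    refine Cy.mul_mem hc (hZE b hb ?_)
    intro y hy
    have h1 := h y (hEle hy)
    have h2 := hcomR c hc y (hEle hy)
    have h3 : c * (b * y) = c * (y * b) := by
      rw [← mul_assoc, h1, ← mul_assoc, h2, mul_assoc]
    exact (mul_left_cancel h3).symm
  have htC : t ∈ Cy := hcen t htR (fun y hy => (hRH y hy).symm)
  have hut : u * u = t := (hinv2 t htC htt ht1).symm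
  -- squares and commutators in `E`
  have hZ2 : ∀ b : E, b ∈ Subgroup.center E → (b : G) = 1 ∨ (b : G) = t := by
    intro b hb
    by_cases h1 : (b : G) = 1
    · exact Or.inl h1
    right
    have h2 : (b : G) ∈ Cy := hZE b b.2 (fun y hy => by
      have := Subgroup.mem_center_iff.1 hb ⟨y, hy⟩
      exact congrArg Subtype.val this)
    have h3 : b ^ 2 = 1 := Cfsg.Agent.Transfer.Extraspecial.pow_eq_one_of_mem_center hEex hb
    have h4 : (b : G) * b = 1 := by
      have := congrArg Subtype.val h3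
      rw [← pow_two]
      exact this
    rw [hinv2 b h2 h4 h1, hut]
  have hsqE : ∀ b ∈ E, b * b = 1 ∨ b * b = t := by
    intro b hb
    have h1 := hZ2 _ (Cfsg.Agent.Transfer.Extraspecial.pow_mem_center hEex ⟨b, hb⟩)
    have h2 : (((⟨b, hb⟩ : E) ^ 2 : E) : G) = b * b := by
      rw [pow_two]; rfl
    rwa [h2] at h1
  have hcomE : ∀ b ∈ E, ∀ d ∈ E, b * d = d * b ∨ b * d = d * b * t := by
    intro b hb d hd
    have h1 := hZ2 _ (Cfsg.Agent.Transfer.Extraspecial.comm_mem_center hEex ⟨d, hd⟩⁻¹ ⟨b, hb⟩⁻¹)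
    have h2 : ((⁅(⟨d, hd⟩ : E)⁻¹, (⟨b, hb⟩ : E)⁻¹⁆ : E) : G) = d⁻¹ * b⁻¹ * d * b := by
      rw [commutatorElement_def, inv_inv, inv_inv]; rfl
    rw [h2] at h1
    have hbt : b * t = t * b := hRH b (hEle hb)
    have hdt : d * t = t * d := hRH d (hEle hd)
    rcases h1 with h1 | h1
    · left
      have h3 : b * d = b * d * (d⁻¹ * b⁻¹ * d * b) := by rw [h1, mul_one]
      rw [h3]; group
    · right
      have h3 : b * d * t = d * b := by rw [← h1]; group
      rw [← h3, mul_assoc, htt, mul_one]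
  have huR : u ∈ R := hCyR huC
  have hutc : u * t = t * u := hRH u huR
  have hcases : ∀ c ∈ Cy, c = 1 ∨ c = t ∨ c = u ∨ c = u * t := by
    intro c hc
    obtain ⟨k, hk, rfl⟩ := hgen c hc
    interval_cases k
    · left; simp
    · right; right; left; simp
    · right; left; rw [pow_two, hut]
    · right; right; right; rw [pow_succ', pow_two, hut]
  refine ⟨u, ht1, htt, huR, hut, fun x hx => hcomR u huC x hx, hRn, ?_, ?_, ?_, ?_, hmax⟩
  · intro x hx
    obtain ⟨c, hc, b, hb, rfl⟩ := hdec x hx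
    have h1 := hcomR c hc b (hEle hb)
    have h2 : c * b * (c * b) = (c * c) * (b * b) := by
      calc c * b * (c * b) = c * (b * c) * b := by group
        _ = c * (c * b) * b := by rw [h1]
        _ = _ := by group
    have h3 : c * c = 1 ∨ c * c = t := by
      rcases hcases c hc with rfl | rfl | rfl | rfl
      · left; simp
      · left; exact htt
      · right; exact hut
      · right
        calc u * t * (u * t) = u * (t * u) * t := by group
          _ = u * (u * t) * t := by rw [hutc]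
          _ = (u * u) * (t * t) := by group
          _ = t := by rw [hut, htt, mul_one]
    rw [h2]
    rcases h3 with h3 | h3 <;> rcases hsqE b hb with h4 | h4 <;> rw [h3, h4]
    · left; simp
    · right; simp
    · right; simp
    · left; exact htt
  · intro x hx y hy
    obtain ⟨c, hc, b, hb, rfl⟩ := hdec x hx
    obtain ⟨c', hc', b', hb', rfl⟩ := hdec y hy
    have h1 := hcomR c' hc' b (hEle hb)
    have h2 := hcomR c hc b' (hEle hb')
    have h3 := hcomR c' hc' c (hCyR hc)
    have e1 : c * b * (c' * b') = c * c' * (b * b') := by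
      calc c * b * (c' * b') = c * (b * c') * b' := by group
        _ = c * (c' * b) * b' := by rw [h1]
        _ = _ := by group
    have e2 : c' * b' * (c * b) = c * c' * (b' * b) := by
      calc c' * b' * (c * b) = c' * (b' * c) * b := by group
        _ = c' * (c * b') * b := by rw [h2]
        _ = (c' * c) * (b' * b) := by group
        _ = (c * c') * (b' * b) := by rw [h3]
    rw [e1, e2]
    rcases hcomE b hb b' hb' with h | h
    · left; rw [h]
    · right; rw [h]; group
  · intro x hx h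
    exact hcases x (hcen x hx h)
  · have h1 : Cy ≤ Subgroup.normalizer (E : Set G) := by
      intro c hc
      rw [Subgroup.mem_normalizer_iff]
      intro y
      constructor
      · intro hy
        rw [← hcomR c hc y (hEle hy), mul_inv_cancel_right]; exact hy
      · intro hy
        have h2 := hcomR c hc _ (hEle hy)
        have h3 : c * y * c⁻¹ = y := by
          have h4 : c * y * c⁻¹ * c = c * (c * y * c⁻¹) := h2
          rw [inv_mul_cancel_right] at h4
          exact (mul_left_cancel h4).symm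
        rwa [h3] at hy
    have h2 := Cfsg.Agent.StdL2.G23Coset.card_sup_mul_card_inf h1
    rw [hprod, hmeet, hCycard, hEcard] at h2
    have h3 : Nat.card (E ⊓ Subgroup.centralizer (E : Set G) : Subgroup G) = 2 := by
      have h4 : E ⊓ Subgroup.centralizer (E : Set G) = (Subgroup.center E).map E.subtype := by
        ext x
        constructor
        · rintro ⟨hx, hx'⟩
          refine ⟨⟨x, hx⟩, ?_, rfl⟩
          change (⟨x, hx⟩ : E) ∈ Subgroup.center E
          rw [Subgroup.mem_center_iff]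
          intro y
          exact Subtype.ext (Subgroup.mem_centralizer_iff.1 hx' y y.2)
        · rintro ⟨y, hy, rfl⟩
          refine ⟨y.2, Subgroup.mem_centralizer_iff.2 fun w hw => ?_⟩
          exact congrArg Subtype.val (Subgroup.mem_center_iff.1 hy ⟨w, hw⟩)
      rw [h4, Subgroup.card_map_of_injective E.subtype_injective]
      exact hEex.2
    rw [h3] at h2
    omega

end Cfsg.Agent.H345.HSA
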