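import Mathlib
import Cfsg.Agent.H345.HSA
import Cfsg.Agent.StdL2.G23Aut
import Cfsg.Agent.StdL2.G23Coset
import Cfsg.Agent.GH.C2GrowL3Base
import Cfsg.Agent.HSU.Base

/-!
# S3346, part 2: the two local subgroups `C_G(t)` and `N_G(V)`
-/

set_option autoImplicit false



namespace Cfsg.Agent.H345.HSA.Rdat

open Subgroup

variable {G : Type*} [Group G] {t u : G} {R : Subgroup G}

theorem commt (h : Rdat t u R) : ∀ x ∈ R, x * t = t * x := by
  intro x hx
  have h1 := h.comm_u x hx
  rw [← h.u_sq, ← mul_assoc, h1, mul_assoc, h1, mul_assoc]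

theorem t_mem (h : Rdat t u R) : t ∈ R := by
  rw [← h.u_sq]; exact R.mul_mem h.u_mem h.u_mem

theorem u_ne (h : Rdat t u R) : u ≠ 1 := by
  intro h1
  apply h.t_ne
  rw [← h.u_sq, h1, one_mul]

theorem u_ne_t (h : Rdat t u R) : u ≠ t := by
  intro h1
  apply h.t_ne
  have h2 := h.u_sq
  rw [h1, h.t_sq] at h2
  exact h2.symm

theorem card_u (h : Rdat t u R) : Nat.card (zpowers u) = 4 := by
  rw [Nat.card_zpowers]
  have : orderOf u = 2 ^ 2 := by
    refine orderOf_eq_prime_pow (p := 2) (n := 1) ?_ ?_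
    · rw [pow_one, pow_two, h.u_sq]; exact h.t_ne
    · rw [show (2 : ℕ) ^ (1 + 1) = 2 * 2 from rfl, pow_mul, pow_two u, h.u_sq, pow_two]; exact h.t_sq
  simpa using this

theorem mem_zpowers_iff (h : Rdat t u R) {x : G} :
    x ∈ zpowers u ↔ x = 1 ∨ x = t ∨ x = u ∨ x = u * t := by
  constructor
  · intro hx
    have hxR : x ∈ R := (zpowers_le.2 h.u_mem) hx
    apply h.cent x hxR
    intro y hy
    obtain ⟨n, rfl⟩ := Subgroup.mem_zpowers_iff.1 hx
    have h1 : Commute y u := h.comm_u y hy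
    exact ((h1.zpow_right n).eq).symm
  · rintro (rfl | rfl | rfl | rfl)
    · exact one_mem _
    · rw [← h.u_sq]; exact mul_mem (mem_zpowers u) (mem_zpowers u)
    · exact mem_zpowers _
    · exact mul_mem (mem_zpowers u) (by rw [← h.u_sq]; exact mul_mem (mem_zpowers u) (mem_zpowers u))

theorem sq_zpowers (h : Rdat t u R) {x : G} (hx : x ∈ zpowers u) (hxx : x * x = 1) :
    x = 1 ∨ x = t := by
  have h1 := h.commt u h.u_mem
  rcases h.mem_zpowers_iff.1 hx with rfl | rfl | rfl | rfl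
  · exact Or.inl rfl
  · exact Or.inr rfl
  · exact absurd (h.u_sq.symm.trans hxx) h.t_ne
  · exfalso
    apply h.t_ne
    calc t = (u * u) * (t * t) := by rw [h.u_sq, h.t_sq, mul_one]
      _ = u * (u * t) * t := by group
      _ = u * (t * u) * t := by rw [h1]
      _ = u * t * (u * t) := by group
      _ = 1 := hxx

/-- The centraliser of `r` in a subgroup `B` of `R` has index at most 2. -/
theorem card_le_two [Finite G] (h : Rdat t u R) {B : Subgroup G} (hB : B ≤ R) {r : G} (hr : r ∈ R) :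
    Nat.card B ≤ 2 * Nat.card (B ⊓ centralizer ({r} : Set G) : Subgroup G) := by
  classical
  by_cases hall : ∀ b ∈ B, b * r = r * b
  · have : B ⊓ centralizer ({r} : Set G) = B :=
      inf_eq_left.2 fun b hb => mem_centralizer_singleton_iff.2 (hall b hb)
    rw [this]; omega
  push Not at hall
  obtain ⟨b0, hb0, hb0r⟩ := hall
  set C : Subgroup G := B ⊓ centralizer ({r} : Set G) with hC
  have hbt : b0 * r = r * b0 * t := (h.comm b0 (hB hb0) r hr).resolve_left hb0r
  have hsub : (B : Set G) ⊆ (C : Set G) ∪ (fun c => c * b0) '' (C : Set G) := by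
    intro b hb
    rcases h.comm b (hB hb) r hr with h1 | h1
    · exact Or.inl ⟨hb, mem_centralizer_singleton_iff.2 h1⟩
    · right
      refine ⟨b * b0⁻¹, ⟨B.mul_mem hb (B.inv_mem hb0), mem_centralizer_singleton_iff.2 ?_⟩, by simp⟩
      have h2 : b0⁻¹ * r = r * b0⁻¹ * t := by
        have h4 : r * b0 = b0 * r * t := by
          rw [hbt, mul_assoc, h.t_sq, mul_one]
        have h3 : b0⁻¹ * (r * b0) * b0⁻¹ = b0⁻¹ * (b0 * r * t) * b0⁻¹ := by rw [h4]
        have h5 := h.commt b0 (hB hb0)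
        have h6 : t * b0⁻¹ = b0⁻¹ * t := by
          rw [eq_inv_mul_iff_mul_eq, ← mul_assoc, h5, mul_inv_cancel_right]
        calc b0⁻¹ * r = b0⁻¹ * (r * b0) * b0⁻¹ := by group
          _ = b0⁻¹ * (b0 * r * t) * b0⁻¹ := h3
          _ = r * (t * b0⁻¹) := by group
          _ = r * (b0⁻¹ * t) := by rw [h6]
          _ = r * b0⁻¹ * t := by group
      have h7 : t * b0⁻¹ = b0⁻¹ * t := by
        rw [eq_inv_mul_iff_mul_eq, ← mul_assoc, h.commt b0 (hB hb0), mul_inv_cancel_right]
      calc b * b0⁻¹ * r = b * (b0⁻¹ * r) := by group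
        _ = b * (r * b0⁻¹ * t) := by rw [h2]
        _ = (b * r) * b0⁻¹ * t := by group
        _ = (r * b * t) * b0⁻¹ * t := by rw [h1]
        _ = r * b * (t * b0⁻¹) * t := by group
        _ = r * b * (b0⁻¹ * t) * t := by rw [h7]
        _ = r * (b * b0⁻¹) * (t * t) := by group
        _ = r * (b * b0⁻¹) := by rw [h.t_sq, mul_one]
  have h1 : (B : Set G).ncard ≤ (C : Set G).ncard + (C : Set G).ncard :=
    (Set.ncard_le_ncard hsub (Set.toFinite _)).trans ((Set.ncard_union_le _ _).trans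
      (Nat.add_le_add_left (Set.ncard_image_le (Set.toFinite _)) _))
  have h2 : Nat.card B = (B : Set G).ncard := rfl
  have h3 : Nat.card C = (C : Set G).ncard := rfl
  omega

/-- An abelian subgroup of `R` has order at most 16. -/
theorem card_comm_le [Finite G] (h : Rdat t u R) {B : Subgroup G} (hB : B ≤ R)
    (hc : ∀ x ∈ B, ∀ y ∈ B, x * y = y * x) : Nat.card B ≤ 16 := by
  classical
  by_contra hlt
  have hdvd : Nat.card B ∣ 64 := h.card ▸ Subgroup.card_dvd_of_le hB
  have h32 : Nat.card B = 32 ∨ Nat.card B = 64 := by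
    obtain ⟨k, hk, hk'⟩ := (Nat.dvd_prime_pow Nat.prime_two).1 (show Nat.card B ∣ 2 ^ 6 from hdvd)
    interval_cases k <;> omega
  have hfour : ∀ Z : Subgroup G, Z ≤ zpowers u → Nat.card Z ≤ 4 := by
    intro Z hZ
    rw [← h.card_u]
    exact Nat.le_of_dvd Nat.card_pos (Subgroup.card_dvd_of_le hZ)
  rcases h32 with h32 | h64
  · -- `B` of index two
    obtain ⟨r, hr, hrB⟩ : ∃ r ∈ R, r ∉ B := by
      by_contra hcon
      push Not at hcon
      have := Nat.le_of_dvd Nat.card_pos (Subgroup.card_dvd_of_le hcon)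
      rw [h.card] at this
      omega
    have hidx : (B.subgroupOf R).index = 2 := by
      have h1 := (B.subgroupOf R).card_mul_index
      rw [Nat.card_congr (Subgroup.subgroupOfEquivOfLe hB).toEquiv, h.card, h32] at h1
      omega
    have h2 : Nat.card (B ⊓ centralizer ({r} : Set G) : Subgroup G) ≤ 4 := by
      apply hfour
      rintro b ⟨hb, hbr⟩
      have hbr' := mem_centralizer_singleton_iff.1 hbr
      have h3 := h.cent b (hB hb) ?_
      · exact h.mem_zpowers_iff.2 h3
      · intro y hy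
        by_cases hyB : y ∈ B
        · exact hc b hb y hyB
        · have h4 : (⟨y, hy⟩ : R) * (⟨r, hr⟩ : R)⁻¹ ∈ B.subgroupOf R := by
            rw [mul_mem_iff_of_index_two hidx, inv_mem_iff]
            exact ⟨fun h => absurd h hyB, fun h => absurd h hrB⟩
          have h5 : y * r⁻¹ ∈ B := h4
          have h6 := hc b hb _ h5
          calc b * y = (b * (y * r⁻¹)) * r := by group
            _ = (y * r⁻¹) * (b * r) := by rw [h6]; group
            _ = (y * r⁻¹) * (r * b) := by rw [hbr']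
            _ = y * b := by group
    have := h.card_le_two hB hr
    omega
  · have hBR : B = R := Subgroup.eq_of_le_of_card_ge hB (by rw [h64, h.card])
    have h1 : Nat.card B ≤ 4 := by
      apply hfour
      intro b hb
      exact h.mem_zpowers_iff.2 (h.cent b (hB hb) fun y hy => hc b hb y (hBR ▸ hy))
    omega

end Cfsg.Agent.H345.HSA.Rdat

namespace Cfsg.Agent.H345.HSB

open Cfsg.Agent.H345.HSA Cfsg.Agent.StdL2.G23Aut Subgroup

variable {G : Type*} [Group G]

/-- The configuration: `H = C_G(t)`, `R = O₂(H)`, `V ≤ R`, `A = O₂(N_G(V))`. -/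
structure Sit (t u : G) (R V A : Subgroup G) : Prop where
  r : Rdat t u R
  oct : Oct V
  VR : V ≤ R
  VA : V ≤ A
  Acomm : ∀ a ∈ A, ∀ b ∈ A, a * b = b * a
  Aexp : ∀ a ∈ A, a * a * (a * a) = 1
  Aom : ∀ a ∈ A, a * a = 1 → a ∈ V
  Acard : Nat.card A = 64
  Anorm : ∀ g ∈ normalizer (V : Set G), ∀ a ∈ A, g * a * g⁻¹ ∈ A
  cardN : Nat.card (normalizer (V : Set G)) = 64 * 168
  simp : ∀ K : Subgroup G, A ≤ K → K ≤ normalizer (V : Set G) →
    (∀ g ∈ normalizer (V : Set G), ∀ x ∈ K, g * x * g⁻¹ ∈ K) → K = A ∨ K = normalizer (V : Set G)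
  cardC : Nat.card (centralizer ({t} : Set G)) = 7680


namespace Sit

variable {t u : G} {R V A : Subgroup G}

theorem Vcomm (h : Sit t u R V A) : ∀ x ∈ V, ∀ y ∈ V, x * y = y * x :=
  fun _ hx _ hy => h.oct.comm hx hy

/-- `t ∈ V` -/
theorem t_mem [Finite G] (h : Sit t u R V A) : t ∈ V := by
  by_contra htV
  have hcu : ∀ v ∈ V, ∀ c ∈ zpowers u, v * c = c * v := by
    intro v hv c hc
    obtain ⟨n, rfl⟩ := Subgroup.mem_zpowers_iff.1 hc
    exact ((show Commute v u from h.r.comm_u v (h.VR hv)).zpow_right n).eq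
  have hn : V ≤ normalizer ((zpowers u : Subgroup G) : Set G) := by
    intro v hv
    rw [Subgroup.mem_normalizer_iff]
    intro y
    constructor
    · intro hy
      rw [hcu v hv y hy, mul_inv_cancel_right]; exact hy
    · intro hy
      have h2 := hcu v hv _ hy
      have h3 : v * y * v⁻¹ = y := by
        have h4 : v * (v * y * v⁻¹) = v * y := by rw [h2]; group
        exact mul_left_cancel h4
      rwa [h3] at hy
  have h1 := Cfsg.Agent.StdL2.G23Coset.card_sup_mul_card_inf hn
  have h2 : V ⊓ zpowers u = ⊥ := by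
    rw [eq_bot_iff]
    rintro x ⟨hx, hx'⟩
    rcases h.r.sq_zpowers hx' (h.oct.sq x hx) with rfl | rfl
    · exact one_mem _
    · exact absurd hx htV
  rw [h2, h.oct.card, h.r.card_u, Subgroup.card_bot] at h1
  have h3 : Nat.card (V ⊔ zpowers u : Subgroup G) ≤ 16 := by
    refine h.r.card_comm_le (sup_le h.VR (zpowers_le.2 h.r.u_mem)) ?_
    intro x hx y hy
    obtain ⟨v, hv, c, hc, rfl⟩ := mem_sup_comm hcu hx
    obtain ⟨v', hv', c', hc', rfl⟩ := mem_sup_comm hcu hy
    have e1 := hcu v' hv' c hc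
    have e2 := hcu v hv c' hc'
    have e3 := h.Vcomm v hv v' hv'
    have e4 : c * c' = c' * c := by
      obtain ⟨m, rfl⟩ := Subgroup.mem_zpowers_iff.1 hc
      obtain ⟨n, rfl⟩ := Subgroup.mem_zpowers_iff.1 hc'
      exact zpow_mul_comm u m n
    calc v * c * (v' * c') = v * (c * v') * c' := by group
      _ = v * (v' * c) * c' := by rw [e1]
      _ = (v * v') * (c * c') := by group
      _ = (v' * v) * (c' * c) := by rw [e3, e4]
      _ = v' * (v * c') * c := by group
      _ = v' * (c' * v) * c := by rw [e2]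
      _ = v' * c' * (v * c) := by group
  omega

theorem A_le (h : Sit t u R V A) : A ≤ centralizer (V : Set G) := fun a ha =>
  Subgroup.mem_centralizer_iff.2 fun v hv => h.Acomm v (h.VA hv) a ha

/-- `C_G(V) = A` -/
theorem cent_eq [Finite G] (h : Sit t u R V A) : centralizer (V : Set G) = A := by
  have hle : centralizer (V : Set G) ≤ normalizer (V : Set G) := Subgroup.centralizer_le_normalizer _
  rcases h.simp _ h.A_le hle (by
    intro g hg x hx
    rw [Subgroup.mem_centralizer_iff]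
    intro v hv
    have h1 : g⁻¹ * v * g ∈ V := by
      have := (Subgroup.mem_normalizer_iff.1 (inv_mem hg) v).1 hv
      rwa [inv_inv] at this
    have h2 := Subgroup.mem_centralizer_iff.1 hx _ h1
    calc v * (g * x * g⁻¹) = g * ((g⁻¹ * v * g) * x) * g⁻¹ := by group
      _ = g * (x * (g⁻¹ * v * g)) * g⁻¹ := by rw [h2]
      _ = g * x * g⁻¹ * v := by group) with h1 | h1
  · exact h1
  · exfalso
    have h2 : normalizer (V : Set G) ≤ centralizer ({t} : Set G) := by
      rw [← h1]
      exact Subgroup.centralizer_le (by simpa using h.t_mem)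
    have h3 := Subgroup.card_dvd_of_le h2
    rw [h.cardN, h.cardC] at h3
    norm_num at h3

theorem full [Finite G] (h : Sit t u R V A) : Full (normalizer (V : Set G)) V := by
  rw [full_iff le_rfl]
  have h1 := card_img_mul (K := normalizer (V : Set G)) (V := V) le_rfl
  rw [inf_eq_right.2 (Subgroup.centralizer_le_normalizer _), h.cent_eq, h.Acard, h.cardN] at h1
  have : Finite (MulAut V) := h.oct.finite_aut
  apply Subgroup.eq_top_of_card_eq
  rw [h.oct.card_aut]
  omega

/-- `N_G(V)` is transitive on `V#`. -/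
theorem exists_t [Finite G] (h : Sit t u R V A) {v : G} (hv : v ∈ V) (hv1 : v ≠ 1) :
    ∃ g ∈ normalizer (V : Set G), g * t * g⁻¹ = v := by
  obtain ⟨y, w, b⟩ := h.oct.exists_bas h.t_mem h.r.t_ne
  obtain ⟨y', w', b'⟩ := h.oct.exists_bas hv hv1
  obtain ⟨k, hk, -, h1, -, -⟩ := h.full.bas h.oct b b'
  exact ⟨k, hk, h1⟩

/-- the stabiliser of `t` in `N_G(V)` is transitive on `V - ⟨t⟩`. -/
theorem exists_x [Finite G] (h : Sit t u R V A) {v w : G} (hv : v ∈ V) (hv1 : v ≠ 1) (hvt : v ≠ t)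
    (hw : w ∈ V) (hw1 : w ≠ 1) (hwt : w ≠ t) :
    ∃ g ∈ normalizer (V : Set G), g * t = t * g ∧ g * v * g⁻¹ = w := by
  obtain ⟨y, b⟩ := h.oct.exists_bas' h.t_mem h.r.t_ne hv hv1 hvt
  obtain ⟨y', b'⟩ := h.oct.exists_bas' h.t_mem h.r.t_ne hw hw1 hwt
  obtain ⟨k, hk, -, h1, h2, -⟩ := h.full.bas h.oct b b'
  exact ⟨k, hk, mul_inv_eq_iff_eq_mul.1 h1, h2⟩

/-- the order of `N_G(V) ∩ C_G(t)` -/
theorem card_L [Finite G] (h : Sit t u R V A) :
    Nat.card (normalizer (V : Set G) ⊓ centralizer ({t} : Set G) : Subgroup G) = 1536 := by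
  have h1 := Cfsg.Agent.GH.C2GrowL3Base.card_orb (normalizer (V : Set G)) t
  have h2 : {w : G | ∃ g ∈ normalizer (V : Set G), g * t * g⁻¹ = w} = (V : Set G) \ {1} := by
    ext w
    constructor
    · rintro ⟨g, hg, rfl⟩
      refine ⟨(Subgroup.mem_normalizer_iff.1 hg t).1 h.t_mem, ?_⟩
      intro h3
      exact h.r.t_ne (conj_eq_one_iff.1 h3)
    · rintro ⟨hw, hw1⟩
      exact h.exists_t hw hw1
  have h3 : Nat.card {w : G // ∃ g ∈ normalizer (V : Set G), g * t * g⁻¹ = w} = 7 := by
    have h4 : Nat.card {w : G // ∃ g ∈ normalizer (V : Set G), g * t * g⁻¹ = w} =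
        {w : G | ∃ g ∈ normalizer (V : Set G), g * t * g⁻¹ = w}.ncard := rfl
    rw [h4, h2, Set.ncard_sdiff_singleton_of_mem (one_mem V)]
    have h5 : (V : Set G).ncard = Nat.card V := rfl
    rw [h5, h.oct.card]
  rw [h3, h.cardN] at h1
  omega

end Sit

end Cfsg.Agent.H345.HSB
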