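import Mathlib
import Cfsg.Agent.H345.HSB

/-!
# S3346, part 3: the lines
-/

set_option autoImplicit false

namespace Cfsg.Agent.H345.HSB

open Cfsg.Agent.H345.HSA Cfsg.Agent.StdL2.G23Aut Subgroup

variable {G : Type*} [Group G]

namespace Sit

variable {t u : G} {R V A : Subgroup G}

/-- the order of `N_G(V) ∩ C_G(t) ∩ C_G(x)`, `x ∈ V - ⟨t⟩` -/
theorem card_Lx [Finite G] (h : Sit t u R V A) {x : G} (hx : x ∈ V) (hx1 : x ≠ 1) (hxt : x ≠ t) :
    Nat.card ((normalizer (V : Set G) ⊓ centralizer ({t} : Set G)) ⊓ centralizer ({x} : Set G) :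
      Subgroup G) = 256 := by
  have h1 := Cfsg.Agent.GH.C2GrowL3Base.card_orb
    (normalizer (V : Set G) ⊓ centralizer ({t} : Set G) : Subgroup G) x
  have h2 : {w : G | ∃ g ∈ (normalizer (V : Set G) ⊓ centralizer ({t} : Set G) : Subgroup G),
      g * x * g⁻¹ = w} = ((V : Set G) \ {1}) \ {t} := by
    ext w
    constructor
    · rintro ⟨g, hg, rfl⟩
      refine ⟨⟨(Subgroup.mem_normalizer_iff.1 hg.1 x).1 hx, ?_⟩, ?_⟩
      · intro h3
        exact hx1 (conj_eq_one_iff.1 h3)
      · intro h3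
        have h4 : g * x * g⁻¹ = t := h3
        have h5 : g * t * g⁻¹ = t := mul_inv_eq_iff_eq_mul.2 (mem_centralizer_singleton_iff.1 hg.2)
        exact hxt (mul_left_cancel (mul_right_cancel (h4.trans h5.symm)))
    · rintro ⟨⟨hw, hw1⟩, hwt⟩
      obtain ⟨g, hg, hgt, hgx⟩ := h.exists_x hx hx1 hxt hw hw1 hwt
      exact ⟨g, ⟨hg, mem_centralizer_singleton_iff.2 hgt⟩, hgx⟩
  have h3 : Nat.card {w : G // ∃ g ∈ (normalizer (V : Set G) ⊓ centralizer ({t} : Set G) : Subgroup G),
      g * x * g⁻¹ = w} = 6 := by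
    have h4 : Nat.card {w : G // ∃ g ∈ (normalizer (V : Set G) ⊓ centralizer ({t} : Set G) : Subgroup G),
        g * x * g⁻¹ = w} =
        {w : G | ∃ g ∈ (normalizer (V : Set G) ⊓ centralizer ({t} : Set G) : Subgroup G),
      g * x * g⁻¹ = w}.ncard := rfl
    rw [h4, h2, Set.ncard_sdiff_singleton_of_mem (show t ∈ (V : Set G) \ {1} from ⟨h.t_mem, h.r.t_ne⟩),
      Set.ncard_sdiff_singleton_of_mem (one_mem V)]
    have h5 : (V : Set G).ncard = Nat.card V := rfl
    rw [h5, h.oct.card]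
  rw [h3, h.card_L] at h1
  omega

/-- the orbit of `x` under `C_G(t)` -/
def orb (t x : G) : Set G := {w : G | ∃ g ∈ centralizer ({t} : Set G), g * x * g⁻¹ = w}

theorem mem_R_of_orb (h : Sit t u R V A) {x w : G} (hx : x ∈ V) (hw : w ∈ orb t x) : w ∈ R := by
  obtain ⟨g, hg, rfl⟩ := hw
  exact h.r.conj_mem g (mem_centralizer_singleton_iff.1 hg) x (h.VR hx)

/-- conjugates of `V` -/
theorem V_sub_orb [Finite G] (h : Sit t u R V A) {x : G} (hx : x ∈ V) (hx1 : x ≠ 1) (hxt : x ≠ t)
    {g : G} (hg : g * t = t * g) {v : G} (hv : v ∈ V) :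
    g * v * g⁻¹ = 1 ∨ g * v * g⁻¹ = t ∨ g * v * g⁻¹ ∈ orb t x := by
  by_cases hv1 : v = 1
  · left; rw [hv1]; group
  by_cases hvt : v = t
  · right; left; rw [hvt, hg]; group
  right; right
  obtain ⟨k, -, hkt, hkx⟩ := h.exists_x hx hx1 hxt hv hv1 hvt
  refine ⟨g * k, ?_, by rw [← hkx]; group⟩
  rw [mem_centralizer_singleton_iff, mul_assoc, hkt, ← mul_assoc, hg, mul_assoc]

/-- the conjugate `g V g⁻¹` -/
def cj (V : Subgroup G) (g : G) : Subgroup G := V.map (MulAut.conj g).toMonoidHom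

theorem mem_cj {g x : G} : x ∈ cj V g ↔ ∃ v ∈ V, g * v * g⁻¹ = x := Iff.rfl

theorem card_cj (V : Subgroup G) (g : G) : Nat.card (cj V g) = Nat.card V :=
  Subgroup.card_map_of_injective (MulAut.conj g).injective

theorem conj_inj {g a b : G} (h : g * a * g⁻¹ = g * b * g⁻¹) : a = b :=
  mul_left_cancel (mul_right_cancel h)

theorem mem_norm_of_cj_le [Finite G] {V : Subgroup G} {g : G} (h : cj V g ≤ V) :
    g ∈ normalizer (V : Set G) := by
  have heq : cj V g = V := Subgroup.eq_of_le_of_card_ge h (card_cj V g).ge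
  rw [Subgroup.mem_normalizer_iff]
  intro x
  constructor
  · intro hx
    exact h (mem_cj.2 ⟨x, hx, rfl⟩)
  · intro hx
    rw [← heq] at hx
    obtain ⟨v, hv, hvx⟩ := mem_cj.1 hx
    rw [← conj_inj hvx]; exact hv

theorem mem_norm_of_cj_le_cj [Finite G] {V : Subgroup G} {g k : G} (h : cj V g ≤ cj V k) :
    k⁻¹ * g ∈ normalizer (V : Set G) := by
  apply mem_norm_of_cj_le
  intro x hx
  obtain ⟨v, hv, rfl⟩ := mem_cj.1 hx
  obtain ⟨w, hw, hwv⟩ := mem_cj.1 (h (mem_cj.2 ⟨v, hv, rfl⟩))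
  have : k⁻¹ * g * v * (k⁻¹ * g)⁻¹ = w := by
    calc k⁻¹ * g * v * (k⁻¹ * g)⁻¹ = k⁻¹ * (g * v * g⁻¹) * k := by group
      _ = w := by rw [← hwv]; group
  rw [this]; exact hw

/-- the orbit of `x` has more than ten elements -/
theorem orb_large [Finite G] (h : Sit t u R V A) {x : G} (hx : x ∈ V) (hx1 : x ≠ 1) (hxt : x ≠ t) :
    10 < (orb t x).ncard := by
  classical
  by_contra hlt
  push Not at hlt
  set H : Subgroup G := centralizer ({t} : Set G) with hH
  set L : Subgroup G := normalizer (V : Set G) ⊓ H with hL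
  have hcL : Nat.card L = 1536 := h.card_L
  have hcH : Nat.card H = 7680 := h.cardC
  -- an element of `H` outside `N(V)`
  obtain ⟨g, hg, hgN⟩ : ∃ g ∈ H, g ∉ normalizer (V : Set G) := by
    by_contra hcon
    push Not at hcon
    have h1 : H ≤ L := fun g hg => ⟨hcon g hg, hg⟩
    have := Nat.le_of_dvd Nat.card_pos (Subgroup.card_dvd_of_le h1)
    omega
  -- another one
  obtain ⟨k, hk, hkN, hkg⟩ : ∃ k ∈ H, k ∉ normalizer (V : Set G) ∧ g⁻¹ * k ∉ normalizer (V : Set G) := by
    by_contra hcon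
    push Not at hcon
    have hsub : (H : Set G) ⊆ (L : Set G) ∪ (fun l => g * l) '' (L : Set G) := by
      intro k hk
      by_cases hkN : k ∈ normalizer (V : Set G)
      · exact Or.inl ⟨hkN, hk⟩
      · right
        exact ⟨g⁻¹ * k, ⟨hcon k hk hkN, H.mul_mem (H.inv_mem hg) hk⟩, by simp⟩
    have h1 : (H : Set G).ncard ≤ (L : Set G).ncard + (L : Set G).ncard :=
      (Set.ncard_le_ncard hsub (Set.toFinite _)).trans ((Set.ncard_union_le _ _).trans
        (Nat.add_le_add_left (Set.ncard_image_le (Set.toFinite _)) _))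
    have h2 : Nat.card H = (H : Set G).ncard := rfl
    have h3 : Nat.card L = (L : Set G).ncard := rfl
    omega
  have hgt := mem_centralizer_singleton_iff.1 hg
  have hkt := mem_centralizer_singleton_iff.1 hk
  -- the union of `V` and `V^g`
  set U : Set G := insert 1 (insert t (orb t x)) with hU
  have hUc : U.ncard ≤ 12 := by
    have h1 := Set.ncard_insert_le (1 : G) (insert t (orb t x))
    have h2 := Set.ncard_insert_le t (orb t x)
    rw [hU]; omega
  have hsubU : ∀ g, g * t = t * g → (cj V g : Set G) ⊆ U := by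
    intro g hg w hw
    obtain ⟨v, hv, rfl⟩ := mem_cj.1 hw
    rcases h.V_sub_orb hx hx1 hxt hg hv with h1 | h1 | h1
    · exact Or.inl h1
    · exact Or.inr (Or.inl h1)
    · exact Or.inr (Or.inr h1)
  have hV1 : (V : Set G) ⊆ U := by
    have h1 := hsubU 1 (by simp)
    intro v hv
    exact h1 (mem_cj.2 ⟨v, hv, by simp⟩)
  have hinf : Nat.card (V ⊓ cj V g : Subgroup G) ≤ 4 := by
    by_contra hlt4
    have h1 : Nat.card (V ⊓ cj V g : Subgroup G) ∣ 8 := h.oct.card ▸ Subgroup.card_dvd_of_le inf_le_left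
    have h2 : Nat.card (V ⊓ cj V g : Subgroup G) = 8 := by
      obtain ⟨j, hj, hj'⟩ := (Nat.dvd_prime_pow Nat.prime_two).1
        (show Nat.card (V ⊓ cj V g : Subgroup G) ∣ 2 ^ 3 from h1)
      interval_cases j <;> omega
    have h3 : (V ⊓ cj V g : Subgroup G) = cj V g :=
      Subgroup.eq_of_le_of_card_ge inf_le_right (by rw [card_cj, h.oct.card, h2])
    exact hgN (mem_norm_of_cj_le (inf_eq_right.1 h3))
  have hunion : (V : Set G) ∪ (cj V g : Set G) = U := by
    apply Set.eq_of_subset_of_ncard_le (Set.union_subset hV1 (hsubU g hgt)) _ (Set.toFinite _)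
    have h1 := Set.ncard_union_add_ncard_inter (V : Set G) (cj V g : Set G)
    have h2 : (V : Set G).ncard = Nat.card V := rfl
    have h3 : (cj V g : Set G).ncard = Nat.card (cj V g) := rfl
    have h4 : ((V : Set G) ∩ (cj V g : Set G)).ncard = Nat.card (V ⊓ cj V g : Subgroup G) := rfl
    rw [card_cj] at h3
    rw [h.oct.card] at h2 h3
    omega
  -- `V^k` is contained in the union
  have hk1 : (cj V k : Set G) ⊆ (V : Set G) ∪ (cj V g : Set G) := hunion ▸ hsubU k hkt
  have hk2 : cj V k ≤ V ∨ cj V k ≤ cj V g := by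
    by_contra hcon
    push Not at hcon
    obtain ⟨h1, h2⟩ := hcon
    obtain ⟨a, ha, haV⟩ := SetLike.not_le_iff_exists.1 h1
    obtain ⟨b, hb, hbV⟩ := SetLike.not_le_iff_exists.1 h2
    have ha' : a ∈ cj V g := (hk1 ha).resolve_left haV
    have hb' : b ∈ V := (hk1 hb).resolve_right hbV
    rcases hk1 ((cj V k).mul_mem ha hb) with h3 | h3
    · exact haV ((Subgroup.mul_mem_cancel_right V hb').1 h3)
    · exact hbV ((Subgroup.mul_mem_cancel_left (cj V g) ha').1 h3)
  rcases hk2 with h1 | h1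
  · exact hkN (mem_norm_of_cj_le h1)
  · exact hkg (mem_norm_of_cj_le_cj h1)

/-- the orbit of `x` has 30 elements -/
theorem orb_card [Finite G] (h : Sit t u R V A) {x : G} (hx : x ∈ V) (hx1 : x ≠ 1) (hxt : x ≠ t) :
    (orb t x).ncard = 30 ∧
    Nat.card (centralizer ({t} : Set G) ⊓ centralizer ({x} : Set G) : Subgroup G) = 256 := by
  classical
  set H : Subgroup G := centralizer ({t} : Set G) with hH
  set C : Subgroup G := H ⊓ centralizer ({x} : Set G) with hC
  have h1 := Cfsg.Agent.GH.C2GrowL3Base.card_orb H x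
  have h2 : Nat.card {w : G // ∃ g ∈ H, g * x * g⁻¹ = w} = (orb t x).ncard := rfl
  rw [h2, h.cardC, ← hC] at h1
  have h3 : 256 ∣ Nat.card C := by
    rw [← h.card_Lx hx hx1 hxt]
    apply Subgroup.card_dvd_of_le
    rintro g ⟨⟨-, hg⟩, hg'⟩
    exact ⟨hg, hg'⟩
  obtain ⟨r, hr⟩ := h3
  have h4 := h.orb_large hx hx1 hxt
  have h5 : r * (orb t x).ncard = 30 := by
    rw [hr] at h1
    have : 256 * (r * (orb t x).ncard) = 256 * 30 := by rw [← mul_assoc]; omega
    exact Nat.eq_of_mul_eq_mul_left (by norm_num) this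
  have h6 : r ≤ 2 := by
    by_contra h7
    have : 3 * 11 ≤ r * (orb t x).ncard := Nat.mul_le_mul (by omega) (by omega)
    omega
  interval_cases r
  · omega
  · exact ⟨by omega, by omega⟩
  · exfalso
    -- `|C| = 512`, hence `R ≤ C`
    have hCn : C ≤ normalizer (R : Set G) := by
      intro c hc
      have hct := mem_centralizer_singleton_iff.1 hc.1
      have hct' : c⁻¹ * t = t * c⁻¹ := (show Commute c t from hct).inv_left.eq
      rw [Subgroup.mem_normalizer_iff]
      intro y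
      constructor
      · exact h.r.conj_mem c hct y
      · intro hy
        have := h.r.conj_mem c⁻¹ hct' _ hy
        have e : c⁻¹ * (c * y * c⁻¹) * c⁻¹⁻¹ = y := by group
        rwa [e] at this
    have h7 := Cfsg.Agent.StdL2.G23Coset.card_sup_mul_card_inf hCn
    rw [hr, h.r.card] at h7
    have h8 : Nat.card (C ⊓ R : Subgroup G) ∣ 64 := h.r.card ▸ Subgroup.card_dvd_of_le inf_le_right
    have h9 : Nat.card (C ⊔ R : Subgroup G) ∣ 7680 := by
      rw [← h.cardC]
      apply Subgroup.card_dvd_of_le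
      refine sup_le inf_le_left fun y hy => ?_
      exact mem_centralizer_singleton_iff.2 (h.r.commt y hy)
    have h10 : Nat.card (C ⊓ R : Subgroup G) ≠ 64 := by
      intro h11
      have h12 : (C ⊓ R : Subgroup G) = R :=
        Subgroup.eq_of_le_of_card_ge inf_le_right (by rw [h11, h.r.card])
      have h13 : ∀ y ∈ R, x * y = y * x := by
        intro y hy
        rw [← h12] at hy
        exact (mem_centralizer_singleton_iff.1 hy.1.2).symm
      have h14 := h.r.sq_zpowers (h.r.mem_zpowers_iff.2 (h.r.cent x (h.VR hx) h13)) (h.oct.sq x hx)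
      rcases h14 with h14 | h14
      · exact hx1 h14
      · exact hxt h14
    obtain ⟨j, hj, hj'⟩ := (Nat.dvd_prime_pow Nat.prime_two).1
      (show Nat.card (C ⊓ R : Subgroup G) ∣ 2 ^ 6 from h8)
    rw [hj'] at h7 h10
    interval_cases j
    all_goals first
      | omega
      | (have h15 : ∃ m, Nat.card (C ⊔ R : Subgroup G) = 2 ^ 10 * m := ⟨_, by
          first
          | exact (show Nat.card (C ⊔ R : Subgroup G) = 2 ^ 10 * 32 by omega)
          | exact (show Nat.card (C ⊔ R : Subgroup G) = 2 ^ 10 * 16 by omega)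
          | exact (show Nat.card (C ⊔ R : Subgroup G) = 2 ^ 10 * 8 by omega)
          | exact (show Nat.card (C ⊔ R : Subgroup G) = 2 ^ 10 * 4 by omega)
          | exact (show Nat.card (C ⊔ R : Subgroup G) = 2 ^ 10 * 2 by omega)
          | exact (show Nat.card (C ⊔ R : Subgroup G) = 2 ^ 10 * 1 by omega)⟩
         obtain ⟨m, hm⟩ := h15
         have h16 : 2 ^ 10 ∣ 7680 := (Dvd.intro m hm.symm).trans h9
         norm_num at h16)

end Sit

end Cfsg.Agent.H345.HSB
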