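import Mathlib
import Cfsg.Agent.H345.HSC

/-!
# S3346, part 4: the spread and the involution inverting `u`
-/

set_option autoImplicit false

namespace Cfsg.Agent.H345.HSB

open Cfsg.Agent.H345.HSA Cfsg.Agent.StdL2.G23Aut Subgroup

variable {G : Type*} [Group G]

namespace Sit

variable {t u : G} {R V A : Subgroup G}

theorem u_mem_A [Finite G] (h : Sit t u R V A) : u ∈ A := by
  rw [← h.cent_eq, Subgroup.mem_centralizer_iff]
  intro v hv
  exact h.r.comm_u v (h.VR hv)

theorem u_not_mem_V (h : Sit t u R V A) : u ∉ V := fun hu => h.r.t_ne (h.r.u_sq.symm.trans (h.oct.sq u hu))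

/-- conjugates of `u` under `C_G(t)` -/
theorem conj_u (h : Sit t u R V A) {g : G} (hg : g * t = t * g) :
    g * u * g⁻¹ = u ∨ g * u * g⁻¹ = u * t := by
  have h1 : g * u * g⁻¹ ∈ R := h.r.conj_mem g hg u h.r.u_mem
  have hg' : g⁻¹ * t = t * g⁻¹ := (show Commute g t from hg).inv_left.eq
  have h2 : ∀ y ∈ R, (g * u * g⁻¹) * y = y * (g * u * g⁻¹) := by
    intro y hy
    have h3 : g⁻¹ * y * g ∈ R := by
      have := h.r.conj_mem g⁻¹ hg' y hy
      rwa [inv_inv] at this
    have h4 := h.r.comm_u _ h3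
    calc (g * u * g⁻¹) * y = g * (u * (g⁻¹ * y * g)) * g⁻¹ := by group
      _ = g * ((g⁻¹ * y * g) * u) * g⁻¹ := by rw [h4]
      _ = y * (g * u * g⁻¹) := by group
  have h5 : (g * u * g⁻¹) * (g * u * g⁻¹) = t := by
    calc (g * u * g⁻¹) * (g * u * g⁻¹) = g * (u * u) * g⁻¹ := by group
      _ = t := by rw [h.r.u_sq, hg]; group
  rcases h.r.cent _ h1 h2 with h3 | h3 | h3 | h3
  · rw [h3, one_mul] at h5; exact absurd h5.symm h.r.t_ne
  · rw [h3, h.r.t_sq] at h5; exact absurd h5.symm h.r.t_ne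
  · exact Or.inl h3
  · exact Or.inr h3

/-- `R` normalises `V` -/
theorem R_le [Finite G] (h : Sit t u R V A) : R ≤ normalizer (V : Set G) := by
  have key : ∀ r ∈ R, ∀ v ∈ V, r * v * r⁻¹ ∈ V := by
    intro r hr v hv
    rcases h.r.comm r hr v (h.VR hv) with h1 | h1
    · rw [h1, mul_inv_cancel_right]; exact hv
    · have h2 := h.r.commt r hr
      have h3 : r * v * r⁻¹ = v * t := by
        rw [h1, mul_assoc v, h2, ← mul_assoc, mul_inv_cancel_right]
      rw [h3]; exact V.mul_mem hv h.t_mem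
  intro r hr
  rw [Subgroup.mem_normalizer_iff]
  intro y
  constructor
  · exact key r hr y
  · intro hy
    have := key r⁻¹ (R.inv_mem hr) _ hy
    have e : r⁻¹ * (r * y * r⁻¹) * r⁻¹⁻¹ = y := by group
    rwa [e] at this

/-- conjugation of `V` by elements of `R` -/
theorem R_act (h : Sit t u R V A) {r v : G} (hr : r ∈ R) (hv : v ∈ V) :
    r * v * r⁻¹ = v ∨ r * v * r⁻¹ = v * t := by
  rcases h.r.comm r hr v (h.VR hv) with h1 | h1
  · left; rw [h1, mul_inv_cancel_right]
  · right
    have h2 := h.r.commt r hr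
    rw [h1, mul_assoc v, h2, ← mul_assoc, mul_inv_cancel_right]

/-- the line `A ∩ R` has order 16 -/
theorem card_AR [Finite G] (h : Sit t u R V A) : Nat.card (A ⊓ R : Subgroup G) = 16 := by
  have h1 : Nat.card (A ⊓ R : Subgroup G) ≤ 16 :=
    h.r.card_comm_le inf_le_right fun x hx y hy => h.Acomm x hx.1 y hy.1
  have h2 : Nat.card (A ⊓ R : Subgroup G) ∣ 64 := h.Acard ▸ Subgroup.card_dvd_of_le inf_le_left
  have hVle : V ≤ A ⊓ R := le_inf h.VA h.VR
  have h3 : 8 ∣ Nat.card (A ⊓ R : Subgroup G) := h.oct.card ▸ Subgroup.card_dvd_of_le hVle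
  have h4 : Nat.card (A ⊓ R : Subgroup G) ≠ 8 := by
    intro h5
    have h6 : V = A ⊓ R := Subgroup.eq_of_le_of_card_ge hVle (by rw [h5, h.oct.card])
    exact h.u_not_mem_V (h6 ▸ ⟨h.u_mem_A, h.r.u_mem⟩)
  obtain ⟨j, hj, hj'⟩ := (Nat.dvd_prime_pow Nat.prime_two).1
    (show Nat.card (A ⊓ R : Subgroup G) ∣ 2 ^ 6 from h2)
  interval_cases j <;> omega

/-- `C_G(t) ∩ C_G(x) ≤ N_G(V)` -/
theorem cent_le [Finite G] (h : Sit t u R V A) {x : G} (hx : x ∈ V) (hx1 : x ≠ 1) (hxt : x ≠ t)
    {g : G} (hg : g * t = t * g) (hgx : g * x = x * g) : g ∈ normalizer (V : Set G) := by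
  have h1 : (normalizer (V : Set G) ⊓ centralizer ({t} : Set G)) ⊓ centralizer ({x} : Set G) ≤
      centralizer ({t} : Set G) ⊓ centralizer ({x} : Set G) := by
    rintro y ⟨⟨-, hy⟩, hy'⟩
    exact ⟨hy, hy'⟩
  have h2 := Subgroup.eq_of_le_of_card_ge h1 (by rw [h.card_Lx hx hx1 hxt, (h.orb_card hx hx1 hxt).2])
  have h3 : g ∈ (centralizer ({t} : Set G) ⊓ centralizer ({x} : Set G) : Subgroup G) :=
    ⟨mem_centralizer_singleton_iff.2 hg, mem_centralizer_singleton_iff.2 hgx⟩
  rw [← h2] at h3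
  exact h3.1.1

/-- every noncentral involution of `R` is in the orbit of `x` -/
theorem mem_orb [Finite G] (h : Sit t u R V A) {x : G} (hx : x ∈ V) (hx1 : x ≠ 1) (hxt : x ≠ t)
    {y : G} (hy : y ∈ R) (hyy : y * y = 1) (hy1 : y ≠ 1) (hyt : y ≠ t) : y ∈ orb t x := by
  classical
  set I : Set G := {y | y ∈ R ∧ y * y = 1} with hI
  have hdisj : Disjoint I ((fun y => y * u) '' I) := by
    rw [Set.disjoint_left]
    rintro _ ⟨-, h1⟩ ⟨y, ⟨hyR, hyy⟩, rfl⟩
    apply h.r.t_ne
    calc t = (y * y) * (u * u) := by rw [hyy, h.r.u_sq, one_mul]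
      _ = y * (y * u) * u := by group
      _ = y * (u * y) * u := by rw [h.r.comm_u y hyR]
      _ = y * u * (y * u) := by group
      _ = 1 := h1
  have hI32 : I.ncard ≤ 32 := by
    have h1 : (I ∪ (fun y => y * u) '' I) ⊆ (R : Set G) := by
      rintro w (⟨hw, -⟩ | ⟨y, ⟨hyR, -⟩, rfl⟩)
      · exact hw
      · exact R.mul_mem hyR h.r.u_mem
    have h2 := Set.ncard_le_ncard h1 (Set.toFinite _)
    rw [Set.ncard_union_eq hdisj (Set.toFinite _) (Set.toFinite _),
      Set.ncard_image_of_injective _ (mul_left_injective u)] at h2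
    have h3 : (R : Set G).ncard = Nat.card R := rfl
    rw [h3, h.r.card] at h2
    omega
  have hsub : orb t x ⊆ (I \ {1}) \ {t} := by
    intro w hw
    refine ⟨⟨⟨h.mem_R_of_orb hx hw, ?_⟩, ?_⟩, ?_⟩
    · obtain ⟨g, hg, rfl⟩ := hw
      calc g * x * g⁻¹ * (g * x * g⁻¹) = g * (x * x) * g⁻¹ := by group
        _ = 1 := by rw [h.oct.sq x hx]; group
    · obtain ⟨g, hg, rfl⟩ := hw
      intro h3
      exact hx1 (conj_eq_one_iff.1 h3)
    · obtain ⟨g, hg, rfl⟩ := hw
      intro h3
      have h4 : g * x * g⁻¹ = t := h3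
      have h5 : g * t * g⁻¹ = t := mul_inv_eq_iff_eq_mul.2 (mem_centralizer_singleton_iff.1 hg)
      exact hxt (mul_left_cancel (mul_right_cancel (h4.trans h5.symm)))
  have hcard : ((I \ {1}) \ {t}).ncard ≤ 30 := by
    have h1 : (1 : G) ∈ I := ⟨R.one_mem, one_mul 1⟩
    have h2 : t ∈ I \ {1} := ⟨⟨h.r.t_mem, h.r.t_sq⟩, h.r.t_ne⟩
    rw [Set.ncard_sdiff_singleton_of_mem h2, Set.ncard_sdiff_singleton_of_mem h1]
    omega
  have heq := Set.eq_of_subset_of_ncard_le hsub (by rw [(h.orb_card hx hx1 hxt).1]; exact hcard)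
    (Set.toFinite _)
  rw [heq]
  exact ⟨⟨⟨hy, hyy⟩, hy1⟩, hyt⟩

/-- a noncentral element of `V` -/
theorem exists_noncentral [Finite G] (h : Sit t u R V A) : ∃ x ∈ V, x ≠ 1 ∧ x ≠ t := by
  obtain ⟨y, w, b⟩ := h.oct.exists_bas h.t_mem h.r.t_ne
  exact ⟨y, b.hy, b.y1, b.yx⟩

/-- all involutions of `R` are conjugate to `t` -/
theorem conj_t [Finite G] (h : Sit t u R V A) {y : G} (hy : y ∈ R) (hyy : y * y = 1) (hy1 : y ≠ 1) :
    ∃ g, g * t * g⁻¹ = y := by
  by_cases hyt : y = t
  · exact ⟨1, by rw [hyt]; group⟩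
  obtain ⟨x, hx, hx1, hxt⟩ := h.exists_noncentral
  obtain ⟨g, -, hg⟩ := h.mem_orb hx hx1 hxt hy hyy hy1 hyt
  obtain ⟨k, -, hk⟩ := h.exists_t hx hx1
  exact ⟨g * k, by rw [← hg, ← hk]; group⟩

/-- elements of `R` up to `u` are involutions -/
theorem sq_or (h : Sit t u R V A) {y : G} (hy : y ∈ R) : y * y = 1 ∨ y * u * (y * u) = 1 := by
  rcases h.r.sq y hy with h1 | h1
  · exact Or.inl h1
  · right
    calc y * u * (y * u) = y * (u * y) * u := by group
      _ = y * (y * u) * u := by rw [h.r.comm_u y hy]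
      _ = (y * y) * (u * u) := by group
      _ = 1 := by rw [h1, h.r.u_sq, h.r.t_sq]

/-- faithfulness on `R / ⟨u⟩` -/
theorem self [Finite G] (h : Sit t u R V A) {g : G} (hg : g * t = t * g)
    (hgR : ∀ x ∈ R, g * x = x * g) : g = 1 ∨ g = t ∨ g = u ∨ g = u * t := by
  have h1 : centralizer (R : Set G) ⊓ centralizer ({t} : Set G) ≤ R := by
    apply h.r.max
    · intro g hg; exact mem_centralizer_singleton_iff.1 hg.2
    · rintro g hg x ⟨hx, hx'⟩
      have hg' : g⁻¹ * t = t * g⁻¹ := (show Commute g t from hg).inv_left.eq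
      refine ⟨?_, ?_⟩
      · change g * x * g⁻¹ ∈ centralizer (R : Set G)
        rw [Subgroup.mem_centralizer_iff]
        intro r hr
        have h1 : g⁻¹ * r * g ∈ R := by
          have := h.r.conj_mem g⁻¹ hg' r hr
          rwa [inv_inv] at this
        have h2 := Subgroup.mem_centralizer_iff.1 hx _ h1
        calc r * (g * x * g⁻¹) = g * ((g⁻¹ * r * g) * x) * g⁻¹ := by group
          _ = g * (x * (g⁻¹ * r * g)) * g⁻¹ := by rw [h2]
          _ = g * x * g⁻¹ * r := by group
      · have h2 := mem_centralizer_singleton_iff.1 hx'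
        change g * x * g⁻¹ ∈ centralizer ({t} : Set G)
        rw [mem_centralizer_singleton_iff]
        calc g * x * g⁻¹ * t = g * x * (g⁻¹ * t) := by group
          _ = g * (x * t) * g⁻¹ := by rw [hg']; group
          _ = (g * t) * x * g⁻¹ := by rw [h2]; group
          _ = t * (g * x * g⁻¹) := by rw [hg]; group
    · have h2 : centralizer (R : Set G) ⊓ centralizer ({t} : Set G) ≤ A := by
        rw [← h.cent_eq]
        exact inf_le_left.trans (Subgroup.centralizer_le h.VR)
      have h3 : IsPGroup 2 A := IsPGroup.of_card (n := 6) (by rw [h.Acard]; norm_num)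
      exact h3.to_le h2
  have h2 : g ∈ R := h1 ⟨Subgroup.mem_centralizer_iff.2 fun x hx => (hgR x hx).symm,
    mem_centralizer_singleton_iff.2 hg⟩
  exact h.r.cent g h2 hgR

theorem faith [Finite G] (h : Sit t u R V A) {g : G} (hg : g * t = t * g)
    (hgR : ∀ x ∈ R, g * x * g⁻¹ = x ∨ g * x * g⁻¹ = x * t ∨ g * x * g⁻¹ = x * u ∨ g * x * g⁻¹ = x * (u * t)) :
    g ∈ R := by
  -- the subgroup of all such elements
  let K : Subgroup G :=
    { carrier := {g | g * t = t * g ∧ ∀ x ∈ R, x⁻¹ * (g * x * g⁻¹) ∈ zpowers u}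
      one_mem' := ⟨by simp, fun x hx => by simp⟩
      mul_mem' := by
        rintro a b ⟨ha, ha'⟩ ⟨hb, hb'⟩
        refine ⟨by rw [mul_assoc, hb, ← mul_assoc, ha, mul_assoc], fun x hx => ?_⟩
        have h1 := ha' x hx
        obtain ⟨n, hn⟩ := Subgroup.mem_zpowers_iff.1 (hb' x hx)
        have h2 : a * (x⁻¹ * (b * x * b⁻¹)) * a⁻¹ ∈ zpowers u := by
          rw [← hn]
          have h3 : a * u ^ n * a⁻¹ = (a * u * a⁻¹) ^ n := by rw [conj_zpow]
          rw [h3]
          apply Subgroup.zpow_mem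
          rcases h.conj_u ha with h4 | h4 <;> rw [h4]
          · exact mem_zpowers u
          · exact h.r.mem_zpowers_iff.2 (Or.inr (Or.inr (Or.inr rfl)))
        have e : x⁻¹ * (a * b * x * (a * b)⁻¹) =
            (x⁻¹ * (a * x * a⁻¹)) * (a * (x⁻¹ * (b * x * b⁻¹)) * a⁻¹) := by group
        rw [e]
        exact mul_mem h1 h2
      inv_mem' := by
        rintro a ⟨ha, ha'⟩
        have hai : a⁻¹ * t = t * a⁻¹ := (show Commute a t from ha).inv_left.eq
        refine ⟨hai, fun x hx => ?_⟩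
        obtain ⟨n, hn⟩ := Subgroup.mem_zpowers_iff.1 (ha' x hx)
        have e : x⁻¹ * (a⁻¹ * x * a⁻¹⁻¹) = a⁻¹ * (u ^ n)⁻¹ * a⁻¹⁻¹ := by
          rw [hn]; group
        rw [e]
        have h3 : a⁻¹ * (u ^ n)⁻¹ * a⁻¹⁻¹ = (a⁻¹ * u * a⁻¹⁻¹) ^ (-n) := by rw [conj_zpow, zpow_neg]
        rw [h3]
        apply Subgroup.zpow_mem
        rcases h.conj_u hai with h4 | h4 <;> rw [h4]
        · exact mem_zpowers u
        · exact h.r.mem_zpowers_iff.2 (Or.inr (Or.inr (Or.inr rfl))) }
  have hK : K ≤ R := by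
    apply h.r.max
    · intro g hg; exact hg.1
    · rintro g hg a ⟨ha, ha'⟩
      have hg' : g⁻¹ * t = t * g⁻¹ := (show Commute g t from hg).inv_left.eq
      refine ⟨?_, ?_⟩
      · calc g * a * g⁻¹ * t = g * a * (g⁻¹ * t) := by group
          _ = g * (a * t) * g⁻¹ := by rw [hg']; group
          _ = (g * t) * a * g⁻¹ := by rw [ha]; group
          _ = t * (g * a * g⁻¹) := by rw [hg]; group
      · intro x hx
        have h1 : g⁻¹ * x * g ∈ R := by
          have := h.r.conj_mem g⁻¹ hg' x hx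
          rwa [inv_inv] at this
        obtain ⟨n, hn⟩ := Subgroup.mem_zpowers_iff.1 (ha' _ h1)
        have e : x⁻¹ * (g * a * g⁻¹ * x * (g * a * g⁻¹)⁻¹) = g * u ^ n * g⁻¹ := by
          rw [hn]; group
        rw [e, show g * u ^ n * g⁻¹ = (g * u * g⁻¹) ^ n by rw [conj_zpow]]
        apply Subgroup.zpow_mem
        rcases h.conj_u hg with h4 | h4 <;> rw [h4]
        · exact mem_zpowers u
        · exact h.r.mem_zpowers_iff.2 (Or.inr (Or.inr (Or.inr rfl)))
    · rintro ⟨g, hg, hg'⟩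
      refine ⟨3, Subtype.ext ?_⟩
      show g ^ (2 ^ 3) = 1
      have hgu : g * g * u * (g * g)⁻¹ = u := by
        have e : g * g * u * (g * g)⁻¹ = g * (g * u * g⁻¹) * g⁻¹ := by group
        rw [e]
        rcases h.conj_u hg with h4 | h4
        · rw [h4, h4]
        · rw [h4]
          calc g * (u * t) * g⁻¹ = (g * u * g⁻¹) * (g * t * g⁻¹) := by group
            _ = u * t * t := by rw [h4, hg, mul_inv_cancel_right]
            _ = u := by rw [mul_assoc, h.r.t_sq, mul_one]
      have hinv : ∀ x ∈ R, x * x = 1 → g * g * x * (g * g)⁻¹ = x := by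
        intro x hx hxx
        obtain ⟨z, hz, hzx⟩ : ∃ z ∈ zpowers u, g * x * g⁻¹ = x * z := ⟨_, hg' x hx, by group⟩
        have hzR : z ∈ R := (zpowers_le.2 h.r.u_mem) hz
        have hcz : ∀ y ∈ R, y * z = z * y := by
          intro y hy
          obtain ⟨n, rfl⟩ := Subgroup.mem_zpowers_iff.1 hz
          exact ((show Commute y u from h.r.comm_u y hy).zpow_right n).eq
        have h1 : (x * z) * (x * z) = 1 := by
          rw [← hzx]
          calc g * x * g⁻¹ * (g * x * g⁻¹) = g * (x * x) * g⁻¹ := by group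
            _ = 1 := by rw [hxx]; group
        have h2 : z * z = 1 := by
          calc z * z = (x * x) * (z * z) := by rw [hxx, one_mul]
            _ = x * (x * z) * z := by group
            _ = x * (z * x) * z := by rw [hcz x hx]
            _ = (x * z) * (x * z) := by group
            _ = 1 := h1
        have e : g * g * x * (g * g)⁻¹ = g * (g * x * g⁻¹) * g⁻¹ := by group
        rw [e, hzx]
        rcases h.r.sq_zpowers hz h2 with rfl | rfl
        · rw [mul_one, hzx, mul_one]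
        · calc g * (x * z) * g⁻¹ = (g * x * g⁻¹) * (g * z * g⁻¹) := by group
            _ = x * z * z := by rw [hzx, hg, mul_inv_cancel_right]
            _ = x := by rw [mul_assoc, h.r.t_sq, mul_one]
      have hall : ∀ x ∈ R, (g * g) * x = x * (g * g) := by
        intro x hx
        rcases h.sq_or hx with h1 | h1
        · have := hinv x hx h1
          exact mul_inv_eq_iff_eq_mul.1 this
        · have h2 := hinv (x * u) (R.mul_mem hx h.r.u_mem) h1
          have h3 : g * g * x * (g * g)⁻¹ * (g * g * u * (g * g)⁻¹) = x * u := by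
            rw [← h2]; group
          rw [hgu] at h3
          exact mul_inv_eq_iff_eq_mul.1 (mul_right_cancel h3)
      have hggt : (g * g) * t = t * (g * g) := by
        rw [mul_assoc, hg, ← mul_assoc, hg, mul_assoc]
      have h5 := h.self hggt hall
      have h6 : (g * g) * (g * g) * ((g * g) * (g * g)) = 1 := by
        have h7 := h.r.commt u h.r.u_mem
        rcases h5 with h5 | h5 | h5 | h5 <;> rw [h5]
        · simp
        · rw [h.r.t_sq, mul_one]
        · rw [h.r.u_sq, h.r.t_sq]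
        · have : u * t * (u * t) = t := by
            calc u * t * (u * t) = u * (t * u) * t := by group
              _ = u * (u * t) * t := by rw [h7]
              _ = (u * u) * (t * t) := by group
              _ = t := by rw [h.r.u_sq, h.r.t_sq, mul_one]
          rw [this, h.r.t_sq]
      rw [← h6, show (2 : ℕ) ^ 3 = 8 by norm_num]
      simp only [pow_succ, pow_zero, one_mul, mul_assoc]
  refine hK ⟨hg, fun x hx => ?_⟩
  rw [h.r.mem_zpowers_iff]
  rcases hgR x hx with h1 | h1 | h1 | h1 <;> rw [h1]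
  · left; group
  · right; left; group
  · right; right; left; group
  · right; right; right; group

end Sit

end Cfsg.Agent.H345.HSB
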