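import Mathlib
import Cfsg.Agent.H345.HSD

/-!
# S3346, part 5: an involution of `N_G(V) ∩ C_G(t)` inverting `u`
-/

set_option autoImplicit false

namespace Cfsg.Agent.H345.HSB

open Cfsg.Agent.H345.HSA Cfsg.Agent.StdL2.G23Aut Subgroup

variable {G : Type*} [Group G]

namespace Sit

variable {t u : G} {R V A : Subgroup G}

/-- Some element of `N_G(V) ∩ C_G(t)` inverts `u`. -/
theorem exists_inv [Finite G] (h : Sit t u R V A) :
    ∃ y ∈ normalizer (V : Set G), y * t = t * y ∧ y * u * y⁻¹ = u * t := by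
  classical
  by_contra hcon
  push Not at hcon
  have hfix : ∀ y ∈ normalizer (V : Set G), y * t = t * y → y * u * y⁻¹ = u := fun y hy hyt =>
    (h.conj_u hyt).resolve_right (hcon y hy hyt)
  -- the section `v ↦ u_v`
  have hU : ∃ U : G → G, ∀ g ∈ normalizer (V : Set G), U (g * t * g⁻¹) = g * u * g⁻¹ := by
    have hex : ∀ v : G, ∃ w : G, ∀ g ∈ normalizer (V : Set G), g * t * g⁻¹ = v → w = g * u * g⁻¹ := by
      intro v
      by_cases hv : ∃ g ∈ normalizer (V : Set G), g * t * g⁻¹ = v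
      · obtain ⟨g, hg, hgv⟩ := hv
        refine ⟨g * u * g⁻¹, fun k hk hkv => ?_⟩
        have h1 : (k⁻¹ * g) * t = t * (k⁻¹ * g) := by
          have h2 : g * t * g⁻¹ = k * t * k⁻¹ := hgv.trans hkv.symm
          calc k⁻¹ * g * t = k⁻¹ * (g * t * g⁻¹) * g := by group
            _ = k⁻¹ * (k * t * k⁻¹) * g := by rw [h2]
            _ = t * (k⁻¹ * g) := by group
        have h2 := hfix (k⁻¹ * g) (mul_mem (inv_mem hk) hg) h1
        calc g * u * g⁻¹ = k * ((k⁻¹ * g) * u * (k⁻¹ * g)⁻¹) * k⁻¹ := by group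
          _ = k * u * k⁻¹ := by rw [h2]
      · exact ⟨1, fun g hg hgv => absurd ⟨g, hg, hgv⟩ hv⟩
    choose U hU using hex
    exact ⟨U, fun g hg => hU _ g hg rfl⟩
  obtain ⟨U, hU⟩ := hU
  have hUk : ∀ k ∈ normalizer (V : Set G), ∀ v ∈ V, v ≠ 1 → U (k * v * k⁻¹) = k * U v * k⁻¹ := by
    intro k hk v hv hv1
    obtain ⟨g, hg, rfl⟩ := h.exists_t hv hv1
    rw [hU g hg]
    have e : k * (g * t * g⁻¹) * k⁻¹ = (k * g) * t * (k * g)⁻¹ := by group
    rw [e, hU _ (mul_mem hk hg)]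
    group
  have hUsq : ∀ v ∈ V, v ≠ 1 → U v * U v = v := by
    intro v hv hv1
    obtain ⟨g, hg, rfl⟩ := h.exists_t hv hv1
    rw [hU g hg, ← h.r.u_sq]; group
  have hUA : ∀ v ∈ V, v ≠ 1 → U v ∈ A := by
    intro v hv hv1
    obtain ⟨g, hg, rfl⟩ := h.exists_t hv hv1
    rw [hU g hg]
    exact h.Anorm g hg u h.u_mem_A
  have hVV := h.oct
  -- the product over a line
  have hE : ∀ a b c : G, Bas V a b c → U a * U b * U (a * b) = 1 := by
    intro a b c B
    have hab1 : a * b ≠ 1 := fun e => B.yx (hVV.eq_of_mul B.hy e).symm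
    have habV : a * b ∈ V := V.mul_mem B.hx B.hy
    have hcab : a * b = b * a := h.Vcomm a B.hx b B.hy
    have hUa := hUA a B.hx B.x1
    have hUb := hUA b B.hy B.y1
    have hUab := hUA (a * b) habV hab1
    have c1 := h.Acomm _ hUa _ hUb
    have c2 := h.Acomm _ hUa _ hUab
    have c3 := h.Acomm _ hUb _ hUab
    obtain ⟨E, hEdef⟩ : ∃ E, E = U a * U b * U (a * b) := ⟨_, rfl⟩
    have hEA : E ∈ A := by rw [hEdef]; exact mul_mem (mul_mem hUa hUb) hUab
    have hEE : E * E = 1 := by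
      rw [hEdef]
      calc U a * U b * U (a * b) * (U a * U b * U (a * b))
          = U a * U b * (U (a * b) * U a) * U b * U (a * b) := by group
        _ = U a * U b * (U a * U (a * b)) * U b * U (a * b) := by rw [c2]
        _ = U a * (U b * U a) * (U (a * b) * U b) * U (a * b) := by group
        _ = U a * (U a * U b) * (U b * U (a * b)) * U (a * b) := by rw [c1, c3]
        _ = (U a * U a) * (U b * U b) * (U (a * b) * U (a * b)) := by group
        _ = a * b * (a * b) := by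
            rw [hUsq a B.hx B.x1, hUsq b B.hy B.y1, hUsq _ habV hab1]
        _ = 1 := h.oct.sq _ habV
    have hEV : E ∈ V := h.Aom E hEA hEE
    -- the three-cycle
    have haba : a * b * a = b := by
      rw [hcab, mul_assoc, h.oct.sq a B.hx, mul_one]
    have hbab : b * (a * b) = a := by
      rw [hcab, ← mul_assoc, h.oct.sq b B.hy, one_mul]
    have B3 : Bas V b (a * b) c := by
      refine ⟨B.hy, habV, B.hw, B.y1, hab1, ?_, B.w1, B.wy, ?_, ?_⟩
      · intro e; exact B.x1 (mul_eq_right.1 e)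
      · exact B.wxy
      · intro e; apply B.wx; rw [e, hbab]
    obtain ⟨k, hk, -, k1, k2, k3⟩ := h.full.bas h.oct B B3
    have hkE : k * E * k⁻¹ = E := by
      have e1 : k * E * k⁻¹ = U b * U (a * b) * U a := by
        have e2 : k * (a * b) * k⁻¹ = a := by
          calc k * (a * b) * k⁻¹ = (k * a * k⁻¹) * (k * b * k⁻¹) := by group
            _ = a := by rw [k1, k2, hbab]
        have f1 := hUk k hk a B.hx B.x1
        have f2 := hUk k hk b B.hy B.y1
        have f3 := hUk k hk _ habV hab1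
        rw [k1] at f1
        rw [k2] at f2
        rw [e2] at f3
        have e3 : k * E * k⁻¹ = (k * U a * k⁻¹) * (k * U b * k⁻¹) * (k * U (a * b) * k⁻¹) := by
          rw [hEdef]; group
        rw [e3, ← f1, ← f2, ← f3]
      rw [e1, hEdef]
      calc U b * U (a * b) * U a = U b * (U (a * b) * U a) := by group
        _ = U b * (U a * U (a * b)) := by rw [c2]
        _ = (U b * U a) * U (a * b) := by group
        _ = U a * U b * U (a * b) := by rw [c1]
    -- the transvection `c ↦ c a`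
    obtain ⟨m, hm, -, m1, m2, m3⟩ := h.full.bas h.oct B (B.mulx h.oct)
    have hmE : m * E * m⁻¹ = E := by
      have e2 : m * (a * b) * m⁻¹ = a * b := by
        calc m * (a * b) * m⁻¹ = (m * a * m⁻¹) * (m * b * m⁻¹) := by group
          _ = a * b := by rw [m1, m2]
      have f1 := hUk m hm a B.hx B.x1
      have f2 := hUk m hm b B.hy B.y1
      have f3 := hUk m hm _ habV hab1
      rw [m1] at f1
      rw [m2] at f2
      rw [e2] at f3
      have e3 : m * E * m⁻¹ = (m * U a * m⁻¹) * (m * U b * m⁻¹) * (m * U (a * b) * m⁻¹) := by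
        rw [hEdef]; group
      rw [e3, ← f1, ← f2, ← f3, ← hEdef]
    -- a contradiction unless `E = 1`
    have hmul : ∀ (k x y : G), k * (x * y) * k⁻¹ = (k * x * k⁻¹) * (k * y * k⁻¹) := by
      intro k x y; group
    rw [← hEdef]
    rcases B.cases h.oct hEV with h0 | h0 | h0 | h0 | h0 | h0 | h0 | h0
    · exact h0
    · exfalso; rw [h0, k1] at hkE; exact B.yx hkE
    · exfalso; rw [h0, k2] at hkE; exact B.x1 (mul_eq_right.1 hkE)
    · exfalso; rw [h0, hmul, k1, k2, hbab] at hkE; exact B.y1 (mul_eq_left.1 hkE.symm)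
    · exfalso; rw [h0, m3] at hmE; exact B.x1 (mul_eq_left.1 hmE)
    · exfalso
      rw [h0, hmul, m1, m3] at hmE
      have : a * (c * a) = (a * c) * a := by group
      rw [this] at hmE
      exact B.x1 (mul_eq_left.1 hmE)
    · exfalso
      rw [h0, hmul, m2, m3] at hmE
      have : b * (c * a) = (b * c) * a := by group
      rw [this] at hmE
      exact B.x1 (mul_eq_left.1 hmE)
    · exfalso
      rw [h0, hmul, hmul, m1, m2, m3] at hmE
      have : a * b * (c * a) = (a * b * c) * a := by group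
      rw [this] at hmE
      exact B.x1 (mul_eq_left.1 hmE)
  -- three independent elements
  obtain ⟨b, c, B⟩ := h.oct.exists_bas h.t_mem h.r.t_ne
  obtain ⟨a, ha⟩ : ∃ a, a = t := ⟨_, rfl⟩
  rw [← ha] at B
  have hab1 : a * b ≠ 1 := fun e => B.yx (hVV.eq_of_mul B.hy e).symm
  have hbc1 : b * c ≠ 1 := fun e => B.wy (hVV.eq_of_mul B.hw e).symm
  have habV : a * b ∈ V := V.mul_mem B.hx B.hy
  have hbcV : b * c ∈ V := V.mul_mem B.hy B.hw
  have habcV : a * b * c ∈ V := V.mul_mem habV B.hw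
  have habc1 : a * b * c ≠ 1 := fun e => B.wxy (hVV.eq_of_mul B.hw e).symm
  have hcab : a * b = b * a := h.Vcomm a B.hx b B.hy
  have E1 := hE a b c B
  -- basis `(a b, c, a)`
  have E2 := hE (a * b) c a ⟨habV, B.hw, B.hx, hab1, B.w1, B.wxy, B.x1,
    (fun e => B.y1 (mul_eq_left.1 e.symm)), B.wx.symm, (fun e => by
      have h1 : b * c = 1 := by
        have h2 : a = a * (b * c) := by rw [← mul_assoc]; exact e
        exact mul_eq_left.1 h2.symm
      exact hbc1 h1)⟩
  -- basis `(b, c, a)`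
  have E3 := hE b c a ⟨B.hy, B.hw, B.hx, B.y1, B.w1, B.wy, B.x1, B.yx.symm, B.wx.symm, (fun e => by
      apply habc1
      rw [mul_assoc, ← e]
      exact h.oct.sq a B.hx)⟩
  -- basis `(a, b c, b)`
  have E4 := hE a (b * c) b ⟨B.hx, hbcV, B.hy, B.x1, hbc1, (fun e => by
      apply habc1
      rw [mul_assoc, e]
      exact h.oct.sq a B.hx), B.y1, B.yx, (fun e => B.w1 (mul_eq_left.1 e.symm)), (fun e => by
      have h1 : b = (b * a) * c := by rw [← hcab, mul_assoc]; exact e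
      have h2 : a * c = 1 := by
        have h3 : b = b * (a * c) := by rw [← mul_assoc]; exact h1
        exact mul_eq_left.1 h3.symm
      exact B.wx (hVV.eq_of_mul B.hw h2).symm)⟩
  have hUa := hUA a B.hx B.x1
  have hUb := hUA b B.hy B.y1
  have hUc := hUA c B.hw B.w1
  -- compare
  have e1 : U (a * b) = (U a * U b)⁻¹ := (inv_eq_of_mul_eq_one_right E1).symm
  have e2 : U (a * b * c) = (U (a * b) * U c)⁻¹ := (inv_eq_of_mul_eq_one_right E2).symm
  have e3 : U (b * c) = (U b * U c)⁻¹ := (inv_eq_of_mul_eq_one_right E3).symm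
  have e4 : U (a * (b * c)) = (U a * U (b * c))⁻¹ := (inv_eq_of_mul_eq_one_right E4).symm
  rw [← mul_assoc] at e4
  have e5 : U (a * b) * U c = U a * U (b * c) := by
    rw [← inv_inj, ← e2, ← e4]
  rw [e1, e3] at e5
  have c1 := h.Acomm _ hUa _ hUb
  have c2 := h.Acomm _ hUa _ hUc
  have c3 := h.Acomm _ hUb _ hUc
  -- `(U a U b)⁻¹ U c = U a (U b U c)⁻¹`
  have e6 : U c * U c = U a * U a := by
    have d1 : U c * (U b * U c) = (U a * U b) * U a := by
      calc U c * (U b * U c) = (U a * U b) * ((U a * U b)⁻¹ * U c) * (U b * U c) := by group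
        _ = (U a * U b) * (U a * (U b * U c)⁻¹) * (U b * U c) := by rw [e5]
        _ = (U a * U b) * U a := by group
    have d2 : U c * (U b * U c) = U b * (U c * U c) := by
      rw [← mul_assoc, ← c3, mul_assoc]
    have d3 : (U a * U b) * U a = U b * (U a * U a) := by
      rw [c1, mul_assoc]
    rw [d2, d3] at d1
    exact mul_left_cancel d1
  rw [hUsq c B.hw B.w1, hUsq a B.hx B.x1] at e6
  exact B.wx e6

/-- **An involution inverting `u`.** -/
theorem exists_s [Finite G] (h : Sit t u R V A) :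
    ∃ s ∈ normalizer (V : Set G), s * s = 1 ∧ s * u * s⁻¹ = u * t := by
  classical
  obtain ⟨y, hyN, hyt, hyu⟩ := h.exists_inv
  have hutne : u * t ≠ u := fun e => h.r.t_ne (mul_eq_left.1 e)
  -- `τ` swapping two basis vectors
  obtain ⟨b, c, B⟩ := h.oct.exists_bas h.t_mem h.r.t_ne
  have hVV := h.oct
  have hbc1 : b * c ≠ 1 := fun e => B.wy (hVV.eq_of_mul B.hw e).symm
  have hbcV : b * c ∈ V := V.mul_mem B.hy B.hw
  obtain ⟨τ, hτ, -, τ1, τ2, τ3⟩ := h.full.bas h.oct B (B.swap23 h.oct)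
  have hτt : τ * t = t * τ := mul_inv_eq_iff_eq_mul.1 τ1
  set L : Subgroup G := normalizer (V : Set G) ⊓ centralizer ({t} : Set G) with hL
  set K : Subgroup G := L ⊓ centralizer ({u} : Set G) with hK
  -- `|K| = 768`
  have hcK : Nat.card K = 768 := by
    have h1 := Cfsg.Agent.GH.C2GrowL3Base.card_orb L u
    have h2 : {w : G | ∃ g ∈ L, g * u * g⁻¹ = w} = {u, u * t} := by
      ext w
      constructor
      · rintro ⟨g, hg, rfl⟩
        exact h.conj_u (mem_centralizer_singleton_iff.1 hg.2)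
      · rintro (rfl | rfl)
        · exact ⟨1, L.one_mem, by simp⟩
        · exact ⟨y, ⟨hyN, mem_centralizer_singleton_iff.2 hyt⟩, hyu⟩
    have h3 : Nat.card {w : G // ∃ g ∈ L, g * u * g⁻¹ = w} = 2 := by
      have h4 : Nat.card {w : G // ∃ g ∈ L, g * u * g⁻¹ = w} =
        {w : G | ∃ g ∈ L, g * u * g⁻¹ = w}.ncard := rfl
      rw [h4, h2, Set.ncard_pair hutne.symm]
    rw [h3, ← hK] at h1
    have h5 : Nat.card L = 1536 := h.card_L
    omega
  -- `|A R| = 256`
  have hRA : R ≤ normalizer (A : Set G) := by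
    intro r hr
    have hrN := h.R_le hr
    rw [Subgroup.mem_normalizer_iff]
    intro x
    constructor
    · exact h.Anorm r hrN x
    · intro hx
      have := h.Anorm r⁻¹ (inv_mem hrN) _ hx
      have e : r⁻¹ * (r * x * r⁻¹) * r⁻¹⁻¹ = x := by group
      rwa [e] at this
  have hcN : Nat.card (R ⊔ A : Subgroup G) = 256 := by
    have h1 := Cfsg.Agent.StdL2.G23Coset.card_sup_mul_card_inf hRA
    rw [inf_comm, h.card_AR, h.r.card, h.Acard] at h1
    omega
  have hAN : A ≤ normalizer (V : Set G) := by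
    rw [← h.cent_eq]; exact Subgroup.centralizer_le_normalizer _
  have hAt : ∀ a ∈ A, a * t = t * a := fun a ha => h.Acomm a ha t (h.VA h.t_mem)
  have hAu : ∀ a ∈ A, a * u = u * a := fun a ha => h.Acomm a ha u h.u_mem_A
  have hNK : R ⊔ A ≤ K := by
    refine sup_le (fun r hr => ⟨⟨h.R_le hr, ?_⟩, ?_⟩) (fun a ha => ⟨⟨hAN ha, ?_⟩, ?_⟩)
    · exact mem_centralizer_singleton_iff.2 (h.r.commt r hr)
    · exact mem_centralizer_singleton_iff.2 (h.r.comm_u r hr)
    · exact mem_centralizer_singleton_iff.2 (hAt a ha)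
    · exact mem_centralizer_singleton_iff.2 (hAu a ha)
  -- `A R` is normal in `K`
  have hNn : ((R ⊔ A).subgroupOf K).Normal := by
    constructor
    rintro ⟨n, hnK⟩ hn ⟨k, hk⟩
    change n ∈ R ⊔ A at hn
    change k * n * k⁻¹ ∈ R ⊔ A
    have h1 : (R ⊔ A).map (MulAut.conj k).toMonoidHom ≤ R ⊔ A := by
      rw [Subgroup.map_sup]
      refine sup_le_sup ?_ ?_
      · rintro _ ⟨r, hr, rfl⟩
        exact h.r.conj_mem k (mem_centralizer_singleton_iff.1 hk.1.2) r hr
      · rintro _ ⟨a, ha, rfl⟩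
        exact h.Anorm k hk.1.1 a ha
    exact h1 ⟨n, hn, rfl⟩
  have hidx : ((R ⊔ A).subgroupOf K).index = 3 := by
    have h1 := ((R ⊔ A).subgroupOf K).card_mul_index
    rw [Nat.card_congr (Subgroup.subgroupOfEquivOfLe hNK).toEquiv, hcN, hcK] at h1
    omega
  -- action of `A R` on `V`
  have hact : ∀ n ∈ R ⊔ A, ∀ v ∈ V, n * v * n⁻¹ = v ∨ n * v * n⁻¹ = v * t := by
    have hP : ∀ n ∈ R ⊔ A, n * t = t * n ∧ ∀ v ∈ V, n * v * n⁻¹ = v ∨ n * v * n⁻¹ = v * t := by
      intro n hn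
      rw [Subgroup.sup_eq_closure] at hn
      induction hn using Subgroup.closure_induction with
      | mem x hx =>
        rcases hx with hx | hx
        · exact ⟨h.r.commt x hx, fun v hv => h.R_act hx hv⟩
        · exact ⟨hAt x hx, fun v hv => Or.inl (by
            rw [h.Acomm x hx v (h.VA hv), mul_inv_cancel_right])⟩
      | one => exact ⟨by simp, fun v _ => Or.inl (by simp)⟩
      | mul x y _ _ ihx ihy =>
        refine ⟨by rw [mul_assoc, ihy.1, ← mul_assoc, ihx.1, mul_assoc], fun v hv => ?_⟩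
        have e : x * y * v * (x * y)⁻¹ = x * (y * v * y⁻¹) * x⁻¹ := by group
        have e2 : x * (v * t) * x⁻¹ = (x * v * x⁻¹) * t := by
          calc x * (v * t) * x⁻¹ = x * v * x⁻¹ * (x * t * x⁻¹) := by group
            _ = (x * v * x⁻¹) * t := by rw [ihx.1, mul_inv_cancel_right]
        rw [e]
        rcases ihy.2 v hv with h1 | h1 <;> rcases ihx.2 v hv with h2 | h2
        · left; rw [h1, h2]
        · right; rw [h1, h2]
        · right; rw [h1, e2, h2]
        · left; rw [h1, e2, h2, mul_assoc, h.r.t_sq, mul_one]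
      | inv x _ ih =>
        refine ⟨(show Commute x t from ih.1).inv_left.eq, fun v hv => ?_⟩
        rcases ih.2 v hv with h1 | h1
        · left
          calc x⁻¹ * v * x⁻¹⁻¹ = x⁻¹ * (x * v * x⁻¹) * x := by rw [h1]; group
            _ = v := by group
        · right
          have h3 : x⁻¹ * t = t * x⁻¹ := (show Commute x t from ih.1).inv_left.eq
          have h4 : v = (x * v * x⁻¹) * t := by rw [h1, mul_assoc, h.r.t_sq, mul_one]
          calc x⁻¹ * v * x⁻¹⁻¹ = x⁻¹ * ((x * v * x⁻¹) * t) * x := by rw [← h4]; group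
            _ = v * (x⁻¹ * t) * x := by group
            _ = v * t := by rw [h3]; group
    exact fun n hn => (hP n hn).2
  -- `τ ∉ K`
  have hτK : τ ∉ K := by
    intro hτK
    have hττ : τ * τ ∈ A := by
      rw [← h.cent_eq, Subgroup.mem_centralizer_iff]
      have hg : ∀ x y : G, τ * τ * (x * y) * (τ * τ)⁻¹ = (τ * τ * x * (τ * τ)⁻¹) * (τ * τ * y * (τ * τ)⁻¹) := by
        intro x y; group
      have d1 : τ * τ * t * (τ * τ)⁻¹ = t := by
        calc τ * τ * t * (τ * τ)⁻¹ = τ * (τ * t * τ⁻¹) * τ⁻¹ := by group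
          _ = t := by rw [τ1, τ1]
      have d2 : τ * τ * b * (τ * τ)⁻¹ = b := by
        calc τ * τ * b * (τ * τ)⁻¹ = τ * (τ * b * τ⁻¹) * τ⁻¹ := by group
          _ = b := by rw [τ2, τ3]
      have d3 : τ * τ * c * (τ * τ)⁻¹ = c := by
        calc τ * τ * c * (τ * τ)⁻¹ = τ * (τ * c * τ⁻¹) * τ⁻¹ := by group
          _ = c := by rw [τ3, τ2]
      intro v hv
      symm
      rw [← mul_inv_eq_iff_eq_mul]
      rcases B.cases h.oct hv with h0 | h0 | h0 | h0 | h0 | h0 | h0 | h0 <;> rw [h0]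
      · group
      · exact d1
      · exact d2
      · rw [hg, d1, d2]
      · exact d3
      · rw [hg, d1, d3]
      · rw [hg, d2, d3]
      · rw [hg, hg, d1, d2, d3]
    have h2 : (⟨τ, hτK⟩ : K) * ⟨τ, hτK⟩ ∈ (R ⊔ A).subgroupOf K :=
      (le_sup_right : A ≤ R ⊔ A) hττ
    have h3 : (⟨τ, hτK⟩ : K) ^ 3 ∈ (R ⊔ A).subgroupOf K := by
      rw [← hidx]
      exact Subgroup.pow_index_mem _ _
    have h4 : (⟨τ, hτK⟩ : K) ∈ (R ⊔ A).subgroupOf K := by
      have e : (⟨τ, hτK⟩ : K) = (⟨τ, hτK⟩ : K) ^ 3 * ((⟨τ, hτK⟩ : K) * ⟨τ, hτK⟩)⁻¹ := by group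
      rw [e]
      exact mul_mem h3 (inv_mem h2)
    have h5 : τ ∈ R ⊔ A := h4
    rcases hact τ h5 b B.hy with h6 | h6 <;> rw [τ2] at h6
    · exact B.wy h6
    · apply B.wxy
      rw [h6, h.Vcomm b B.hy t h.t_mem]
  have hτu : τ * u * τ⁻¹ = u * t := by
    refine (h.conj_u hτt).resolve_left fun h1 => hτK ⟨⟨hτ, mem_centralizer_singleton_iff.2 hτt⟩, ?_⟩
    exact mem_centralizer_singleton_iff.2 (mul_inv_eq_iff_eq_mul.1 h1)
  -- an involution of `R` outside `A`
  obtain ⟨r, hr, hrA, hrr⟩ : ∃ r ∈ R, r ∉ A ∧ r * r = 1 := by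
    obtain ⟨r, hr, hrA⟩ : ∃ r ∈ R, r ∉ A := by
      by_contra hcon
      push Not at hcon
      have h1 : (A ⊓ R : Subgroup G) = R := inf_eq_right.2 hcon
      have h2 := h.card_AR
      rw [h1, h.r.card] at h2
      omega
    rcases h.sq_or hr with h1 | h1
    · exact ⟨r, hr, hrA, h1⟩
    · refine ⟨r * u, R.mul_mem hr h.r.u_mem, fun h2 => hrA ?_, h1⟩
      have : r = r * u * u⁻¹ := by group
      rw [this]
      exact A.mul_mem h2 (A.inv_mem h.u_mem_A)
  -- its action on `V`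
  obtain ⟨c', hc', hrc'⟩ : ∃ v ∈ V, r * v * r⁻¹ = v * t := by
    by_contra hcon
    push Not at hcon
    apply hrA
    rw [← h.cent_eq, Subgroup.mem_centralizer_iff]
    intro v hv
    exact (mul_inv_eq_iff_eq_mul.1 ((h.R_act hr hv).resolve_right (hcon v hv))).symm
  have hrt : r * t * r⁻¹ = t := mul_inv_eq_iff_eq_mul.2 (h.r.commt r hr)
  have hc'1 : c' ≠ 1 := by
    rintro rfl
    apply h.r.t_ne
    have : r * 1 * r⁻¹ = 1 := by group
    rw [this, one_mul] at hrc'
    exact hrc'.symm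
  have hc't : c' ≠ t := by
    rintro rfl
    rw [hrt, h.r.t_sq] at hrc'
    exact h.r.t_ne hrc'
  obtain ⟨b', B', hrb'⟩ : ∃ b', Bas V t b' c' ∧ r * b' * r⁻¹ = b' := by
    obtain ⟨w, Bw⟩ := h.oct.exists_bas' h.t_mem h.r.t_ne hc' hc'1 hc't
    have Bw' := Bw.swap23 h.oct
    rcases h.R_act hr Bw.hw with h1 | h1
    · exact ⟨w, Bw', h1⟩
    · refine ⟨w * c', ?_, ?_⟩
      · refine ⟨h.t_mem, V.mul_mem Bw.hw hc', hc', h.r.t_ne, ?_, ?_, hc'1, hc't, ?_, ?_⟩
        · intro e; exact Bw.wy (hVV.eq_of_mul hc' e)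
        · intro e
          apply Bw.wxy
          rw [← e, mul_assoc, h.oct.sq c' hc', mul_one]
        · intro e; exact Bw.w1 (mul_eq_right.1 e.symm)
        · intro e
          have h2 : (t * w) * c' = c' := by rw [mul_assoc]; exact e.symm
          have h3 : t * w = 1 := mul_eq_right.1 h2
          exact Bw.wx (hVV.eq_of_mul Bw.hw h3).symm
      · calc r * (w * c') * r⁻¹ = (r * w * r⁻¹) * (r * c' * r⁻¹) := by group
          _ = w * (t * c') * t := by rw [h1, hrc']; group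
          _ = w * (c' * t) * t := by rw [h.Vcomm t h.t_mem c' hc']
          _ = w * c' * (t * t) := by group
          _ = w * c' := by rw [h.r.t_sq, mul_one]
  -- move it to `τ`
  have B2 : Bas V (b * c) t b := by
    refine ⟨hbcV, h.t_mem, B.hy, hbc1, h.r.t_ne, ?_, B.y1, ?_, B.yx, ?_⟩
    · intro e
      apply B.wxy
      rw [e, h.Vcomm b B.hy c B.hw, mul_assoc, h.oct.sq b B.hy, mul_one]
    · intro e; exact B.w1 (mul_eq_left.1 e.symm)
    · intro e
      have h1 : b = b * (c * t) := by rw [← mul_assoc]; exact e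
      have h2 : c * t = 1 := mul_eq_left.1 h1.symm
      exact B.wx (hVV.eq_of_mul h.t_mem h2)
  obtain ⟨g, hg, -, g1, g2, g3⟩ := h.full.bas h.oct B' B2
  obtain ⟨s, hs⟩ : ∃ s, s = g * r * g⁻¹ := ⟨_, rfl⟩
  have hsN : s ∈ normalizer (V : Set G) := by
    rw [hs]; exact mul_mem (mul_mem hg (h.R_le hr)) (inv_mem hg)
  have s1 : s * (b * c) * s⁻¹ = b * c := by
    rw [hs, ← g1]
    calc g * r * g⁻¹ * (g * t * g⁻¹) * (g * r * g⁻¹)⁻¹ = g * (r * t * r⁻¹) * g⁻¹ := by group
      _ = g * t * g⁻¹ := by rw [hrt]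
  have s2 : s * t * s⁻¹ = t := by
    have e : s * t * s⁻¹ = s * (g * b' * g⁻¹) * s⁻¹ := by rw [g2]
    rw [e, hs]
    calc g * r * g⁻¹ * (g * b' * g⁻¹) * (g * r * g⁻¹)⁻¹ = g * (r * b' * r⁻¹) * g⁻¹ := by group
      _ = t := by rw [hrb', g2]
  have s3 : s * b * s⁻¹ = c := by
    have e : s * b * s⁻¹ = s * (g * c' * g⁻¹) * s⁻¹ := by rw [g3]
    rw [e, hs]
    calc g * r * g⁻¹ * (g * c' * g⁻¹) * (g * r * g⁻¹)⁻¹ = g * (r * c' * r⁻¹) * g⁻¹ := by group
      _ = (g * c' * g⁻¹) * (g * t * g⁻¹) := by rw [hrc']; group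
      _ = b * (b * c) := by rw [g3, g1]
      _ = c := by rw [← mul_assoc, h.oct.sq b B.hy, one_mul]
  have s4 : s * c * s⁻¹ = b := by
    have e : s * c * s⁻¹ = (s * b * s⁻¹)⁻¹ * (s * (b * c) * s⁻¹) := by group
    rw [e, s3, s1, h.oct.inv B.hw, ← mul_assoc, h.Vcomm c B.hw b B.hy, mul_assoc, h.oct.sq c B.hw, mul_one]
  have hsτ : s * τ⁻¹ ∈ A := by
    rw [← h.cent_eq, Subgroup.mem_centralizer_iff]
    have hgm : ∀ x y : G, s * τ⁻¹ * (x * y) * (s * τ⁻¹)⁻¹ =
        (s * τ⁻¹ * x * (s * τ⁻¹)⁻¹) * (s * τ⁻¹ * y * (s * τ⁻¹)⁻¹) := by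
      intro x y; group
    have i1 : τ⁻¹ * t * τ = t := by
      calc τ⁻¹ * t * τ = τ⁻¹ * (τ * t * τ⁻¹) * τ := by rw [τ1]
        _ = t := by group
    have i2 : τ⁻¹ * b * τ = c := by
      calc τ⁻¹ * b * τ = τ⁻¹ * (τ * c * τ⁻¹) * τ := by rw [τ3]
        _ = c := by group
    have i3 : τ⁻¹ * c * τ = b := by
      calc τ⁻¹ * c * τ = τ⁻¹ * (τ * b * τ⁻¹) * τ := by rw [τ2]
        _ = b := by group
    have d1 : s * τ⁻¹ * t * (s * τ⁻¹)⁻¹ = t := by
      calc s * τ⁻¹ * t * (s * τ⁻¹)⁻¹ = s * (τ⁻¹ * t * τ) * s⁻¹ := by group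
        _ = t := by rw [i1, s2]
    have d2 : s * τ⁻¹ * b * (s * τ⁻¹)⁻¹ = b := by
      calc s * τ⁻¹ * b * (s * τ⁻¹)⁻¹ = s * (τ⁻¹ * b * τ) * s⁻¹ := by group
        _ = b := by rw [i2, s4]
    have d3 : s * τ⁻¹ * c * (s * τ⁻¹)⁻¹ = c := by
      calc s * τ⁻¹ * c * (s * τ⁻¹)⁻¹ = s * (τ⁻¹ * c * τ) * s⁻¹ := by group
        _ = c := by rw [i3, s3]
    intro v hv
    symm
    rw [← mul_inv_eq_iff_eq_mul]
    rcases B.cases h.oct hv with h0 | h0 | h0 | h0 | h0 | h0 | h0 | h0 <;> rw [h0]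
    · group
    · exact d1
    · exact d2
    · rw [hgm, d1, d2]
    · exact d3
    · rw [hgm, d1, d3]
    · rw [hgm, d2, d3]
    · rw [hgm, hgm, d1, d2, d3]
  refine ⟨s, hsN, ?_, ?_⟩
  · rw [hs]
    calc g * r * g⁻¹ * (g * r * g⁻¹) = g * (r * r) * g⁻¹ := by group
      _ = 1 := by rw [hrr]; group
  · have hutA : u * t ∈ A := A.mul_mem h.u_mem_A (h.VA h.t_mem)
    have h1 := h.Acomm _ hsτ _ hutA
    calc s * u * s⁻¹ = (s * τ⁻¹) * (τ * u * τ⁻¹) * (s * τ⁻¹)⁻¹ := by group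
      _ = (s * τ⁻¹) * (u * t) * (s * τ⁻¹)⁻¹ := by rw [hτu]
      _ = u * t := by rw [h1, mul_inv_cancel_right]

end Sit

end Cfsg.Agent.H345.HSB
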