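import Mathlib
import Cfsg.Agent.H345.HSE
import Cfsg.Agent.HSU.Final
import Cfsg.Agent.HSType.Final

/-!
# S3346, part 6: the gluing data and the conclusion
-/

set_option autoImplicit false

namespace Cfsg.Agent.H345.HSB

open Cfsg.Agent.H345.HSA Cfsg.Agent.StdL2.G23Aut Subgroup Cfsg.Agent.HSU.Base

variable {G : Type*} [Group G]

namespace Sit

variable {t u : G} {R V A : Subgroup G}

theorem sw [Finite G] (h : Sit t u R V A) : SW R t u where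
  u_mem := h.r.u_mem
  u_sq := h.r.u_sq
  z_ne := h.r.t_ne
  z_sq := h.r.t_sq
  comm_u := h.r.comm_u
  conj_mem := h.r.conj_mem
  sq := h.r.sq
  comm := h.r.comm
  self := fun _ hg hgR => h.self hg hgR
  faith := fun _ hg hgR => h.faith hg hgR

/-- two lines with a common noncentral involution are equal -/
theorem line_le [Finite G] (h : Sit t u R V A) {g k y : G} (hg : g * t = t * g) (hk : k * t = t * k)
    (hyg : y ∈ cj (A ⊓ R) g) (hyk : y ∈ cj (A ⊓ R) k) (hyy : y * y = 1) (hy1 : y ≠ 1) (hyt : y ≠ t) :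
    cj (A ⊓ R) g ≤ cj (A ⊓ R) k := by
  have hgi : g⁻¹ * t = t * g⁻¹ := (show Commute g t from hg).inv_left.eq
  have hki : k⁻¹ * t = t * k⁻¹ := (show Commute k t from hk).inv_left.eq
  obtain ⟨a, ⟨haA, haR⟩, rfl⟩ := mem_cj.1 hyg
  obtain ⟨b, ⟨hbA, hbR⟩, hb⟩ := mem_cj.1 hyk
  have haa : a * a = 1 := by
    have e : a * a = g⁻¹ * ((g * a * g⁻¹) * (g * a * g⁻¹)) * g := by group
    rw [e, hyy]; group
  have hbb : b * b = 1 := by
    have e : b * b = k⁻¹ * ((k * b * k⁻¹) * (k * b * k⁻¹)) * k := by group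
    rw [e, hb, hyy]; group
  have haV := h.Aom a haA haa
  have hbV := h.Aom b hbA hbb
  have hgt : g * t * g⁻¹ = t := mul_inv_eq_iff_eq_mul.2 hg
  have hkt : k * t * k⁻¹ = t := mul_inv_eq_iff_eq_mul.2 hk
  have ha1 : a ≠ 1 := fun e => hy1 (by rw [e]; group)
  have hat : a ≠ t := fun e => hyt (by rw [e, hgt])
  have hb1 : b ≠ 1 := fun e => hy1 (by rw [← hb, e]; group)
  have hbt : b ≠ t := fun e => hyt (by rw [← hb, e, hkt])
  obtain ⟨m, hm, hmt, hmab⟩ := h.exists_x haV ha1 hat hbV hb1 hbt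
  -- `(k m)⁻¹ g` commutes with `a`
  have h1 : (k * m)⁻¹ * g * a = a * ((k * m)⁻¹ * g) := by
    have e : g * a * g⁻¹ = k * (m * a * m⁻¹) * k⁻¹ := by rw [hmab, hb]
    calc (k * m)⁻¹ * g * a = (k * m)⁻¹ * (g * a * g⁻¹) * g := by group
      _ = (k * m)⁻¹ * (k * (m * a * m⁻¹) * k⁻¹) * g := by rw [e]
      _ = a * ((k * m)⁻¹ * g) := by group
  have hmi : m⁻¹ * t = t * m⁻¹ := (show Commute m t from hmt).inv_left.eq
  have h2 : (k * m)⁻¹ * g * t = t * ((k * m)⁻¹ * g) := by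
    calc (k * m)⁻¹ * g * t = m⁻¹ * k⁻¹ * (g * t) := by group
      _ = m⁻¹ * (k⁻¹ * t) * g := by rw [hg]; group
      _ = (m⁻¹ * t) * k⁻¹ * g := by rw [hki]; group
      _ = t * ((k * m)⁻¹ * g) := by rw [hmi]; group
  have h3 := h.cent_le haV ha1 hat h2 h1
  have h4 : k⁻¹ * g ∈ normalizer (V : Set G) := by
    have e : k⁻¹ * g = m * ((k * m)⁻¹ * g) := by group
    rw [e]; exact mul_mem hm h3
  have h5 : k⁻¹ * g * t = t * (k⁻¹ * g) := by
    rw [mul_assoc, hg, ← mul_assoc, hki, mul_assoc]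
  intro w hw
  obtain ⟨v, ⟨hvA, hvR⟩, rfl⟩ := mem_cj.1 hw
  refine mem_cj.2 ⟨(k⁻¹ * g) * v * (k⁻¹ * g)⁻¹, ⟨h.Anorm _ h4 v hvA, h.r.conj_mem _ h5 v hvR⟩, by group⟩

/-- **The gluing data.** -/
theorem dat [Finite G] (h : Sit t u R V A) : ∃ s, Dat R A t u s := by
  obtain ⟨s, hsN, hss, hsu⟩ := h.exists_s
  refine ⟨s, h.sw, h.r.card, h.cardC, ?_, h.Acomm, h.Aexp, h.Acard, hss, hsu, h.Anorm s hsN⟩
  have hu0 : u ∈ (A ⊓ R : Subgroup G) := ⟨h.u_mem_A, h.r.u_mem⟩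
  have ht0 : t ∈ (A ⊓ R : Subgroup G) := ⟨h.VA h.t_mem, h.r.t_mem⟩
  have huB : ∀ g, g * t = t * g → u ∈ cj (A ⊓ R) g := by
    intro g hg
    have hgi : g⁻¹ * t = t * g⁻¹ := (show Commute g t from hg).inv_left.eq
    refine mem_cj.2 ⟨g⁻¹ * u * g, ?_, by group⟩
    have h1 := h.conj_u hgi
    rw [inv_inv] at h1
    rcases h1 with h1 | h1 <;> rw [h1]
    · exact hu0
    · exact mul_mem hu0 ht0
  refine ⟨{B | ∃ g, g * t = t * g ∧ B = cj (A ⊓ R) g}, ?_, ?_, ?_, ?_, ?_⟩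
  · refine ⟨1, by simp, ?_⟩
    ext x
    rw [mem_cj]
    constructor
    · intro hx; exact ⟨x, hx, by group⟩
    · rintro ⟨v, hv, rfl⟩
      have e : 1 * v * 1⁻¹ = v := by group
      rw [e]; exact hv
  · rintro _ ⟨g, hg, rfl⟩
    refine ⟨?_, huB g hg, ?_, ?_⟩
    · intro x hx
      obtain ⟨v, hv, rfl⟩ := mem_cj.1 hx
      exact h.r.conj_mem g hg v hv.2
    · rw [card_cj, h.card_AR]
    · intro x hx y hy
      obtain ⟨v, hv, rfl⟩ := mem_cj.1 hx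
      obtain ⟨w, hw, rfl⟩ := mem_cj.1 hy
      have e := h.Acomm v hv.1 w hw.1
      calc g * v * g⁻¹ * (g * w * g⁻¹) = g * (v * w) * g⁻¹ := by group
        _ = g * (w * v) * g⁻¹ := by rw [e]
        _ = g * w * g⁻¹ * (g * v * g⁻¹) := by group
  · rintro _ ⟨g, hg, rfl⟩ _ ⟨k, hk, rfl⟩ x hxg hxk hx1 hxt hxu hxut
    obtain ⟨v, hv, hvx⟩ := mem_cj.1 hxg
    have hxR : x ∈ R := by rw [← hvx]; exact h.r.conj_mem g hg v hv.2
    have key : ∃ y, y ∈ cj (A ⊓ R) g ∧ y ∈ cj (A ⊓ R) k ∧ y * y = 1 ∧ y ≠ 1 ∧ y ≠ t := by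
      rcases h.sq_or hxR with h1 | h1
      · exact ⟨x, hxg, hxk, h1, hx1, hxt⟩
      · have hui : u⁻¹ = u * t := by
          rw [inv_eq_iff_mul_eq_one, ← mul_assoc, h.r.u_sq, h.r.t_sq]
        refine ⟨x * u, mul_mem hxg (huB g hg), mul_mem hxk (huB k hk), h1, ?_, ?_⟩
        · intro e
          apply hxut
          rw [← hui]; exact mul_eq_one_iff_eq_inv.1 e
        · intro e
          apply hxu
          have e2 : x = t * u⁻¹ := by rw [← e]; group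
          rw [e2, hui, ← mul_assoc, ← h.r.commt u h.r.u_mem, mul_assoc, h.r.t_sq, mul_one]
    obtain ⟨y, hyg, hyk, hyy, hy1, hyt⟩ := key
    exact le_antisymm (h.line_le hg hk hyg hyk hyy hy1 hyt) (h.line_le hk hg hyk hyg hyy hy1 hyt)
  · intro x hx
    obtain ⟨x0, hx0, hx01, hx0t⟩ := h.exists_noncentral
    have hinv : ∀ y ∈ R, y * y = 1 → ∃ g, g * t = t * g ∧ y ∈ cj (A ⊓ R) g := by
      intro y hy hyy
      by_cases hy1 : y = 1
      · exact ⟨1, by simp, by rw [hy1]; exact one_mem _⟩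
      by_cases hyt : y = t
      · exact ⟨1, by simp, mem_cj.2 ⟨t, ht0, by rw [hyt]; group⟩⟩
      obtain ⟨g, hg, hgy⟩ := h.mem_orb hx0 hx01 hx0t hy hyy hy1 hyt
      exact ⟨g, mem_centralizer_singleton_iff.1 hg, mem_cj.2 ⟨x0, ⟨h.VA hx0, h.VR hx0⟩, hgy⟩⟩
    rcases h.sq_or hx with h1 | h1
    · obtain ⟨g, hg, hxg⟩ := hinv x hx h1
      exact ⟨_, ⟨g, hg, rfl⟩, hxg⟩
    · obtain ⟨g, hg, hxg⟩ := hinv (x * u) (R.mul_mem hx h.r.u_mem) h1
      refine ⟨_, ⟨g, hg, rfl⟩, ?_⟩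
      have e : x = (x * u) * u⁻¹ := by group
      rw [e]; exact mul_mem hxg (inv_mem (huB g hg))
  · rintro g hg _ ⟨k, hk, rfl⟩
    refine ⟨_, ⟨g * k, by rw [mul_assoc, hk, ← mul_assoc, hg, mul_assoc], rfl⟩, ?_⟩
    intro x hx
    obtain ⟨v, hv, rfl⟩ := mem_cj.1 hx
    exact mem_cj.2 ⟨v, hv, by group⟩

/-- **The conclusion.** -/
theorem isoHS [Finite G] (h : Sit t u R V A) : Cfsg.Spor.IsoHS G := by
  obtain ⟨s, hs⟩ := h.dat
  obtain ⟨φ, hφ, hc⟩ := Cfsg.Agent.HSU.Final.ctx_of_dat hs fun x hx hxx hx1 => h.conj_t hx hxx hx1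
  exact Cfsg.Agent.HSType.Final.isoHS_of_ctx hφ hc

end Sit

end Cfsg.Agent.H345.HSB
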